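/-
Words in involutive letters, permutation tables and coset-enumeration certificates with proofs.
-/
import Cfsg.Agent.EqAll
import Cfsg.Agent.Fi.BT

set_option autoImplicit false

namespace CA.PM

open CA.TC Subgroup

variable {X : Type*} [Group X]

/-- the product of a word -/
def wd (a : ℕ → X) (w : List ℕ) : X := (w.map a).prod

@[simp] theorem wd_nil (a : ℕ → X) : wd a [] = 1 := rfl
@[simp] theorem wd_cons (a : ℕ → X) (g : ℕ) (w : List ℕ) : wd a (g :: w) = a g * wd a w := by simp [wd]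
@[simp] theorem wd_append (a : ℕ → X) (u v : List ℕ) : wd a (u ++ v) = wd a u * wd a v := by simp [wd]

theorem wd_map {Y : Type*} [Group Y] (f : X →* Y) (a : ℕ → X) (w : List ℕ) :
    wd (fun i => f (a i)) w = f (wd a w) := by
  induction w with
  | nil => simp
  | cons g w ih => simp [ih]

/-- right action of a word on a point of a table -/
noncomputable def run (act : ℕ → ℕ → ℕ) (w : List ℕ) : ℕ → ℕ :=
  List.rec (fun p => p) (fun g _ ih p => frc (act g p) ih) w

@[simp] theorem run_nil (act : ℕ → ℕ → ℕ) (p : ℕ) : run act [] p = p := rfl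
@[simp] theorem run_cons (act : ℕ → ℕ → ℕ) (g : ℕ) (w : List ℕ) (p : ℕ) :
    run act (g :: w) p = run act w (act g p) := frc_eq _ _
theorem run_append (act : ℕ → ℕ → ℕ) (u v : List ℕ) (p : ℕ) : run act (u ++ v) p = run act v (run act u p) := by
  induction u generalizing p with
  | nil => rfl
  | cons g u ih => simp [ih]

/-- test a bit -/
noncomputable def tb (S g : ℕ) : Bool := Nat.beq (Nat.land (Nat.shiftRight S g) 1) 1

theorem tb_eq (S g : ℕ) : tb S g = S.testBit g := by
  unfold tb Nat.testBit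
  have e : Nat.land (Nat.shiftRight S g) 1 = (S >>> g) % 2 := Nat.and_one_is_mod _
  rw [e, Nat.one_and_eq_mod_two]
  rcases Nat.mod_two_eq_zero_or_one (S >>> g) with h | h <;> rw [h] <;> rfl

/-- all letters lie in the mask -/
noncomputable def inS (S : ℕ) (w : List ℕ) : Bool := allL w (tb S)

theorem allL_iff {α : Type} {f : α → Bool} {l : List α} : allL l f = true ↔ ∀ a ∈ l, f a = true := by
  refine ⟨allL_spec, fun h => ?_⟩
  induction l with
  | nil => rfl
  | cons b t ih =>
    exact band_iff.2 ⟨h b List.mem_cons_self, ih fun a ha => h a (List.mem_cons_of_mem _ ha)⟩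

theorem inS_iff {S : ℕ} {w : List ℕ} : inS S w = true ↔ ∀ g ∈ w, tb S g = true := allL_iff

theorem inS_nil (S : ℕ) : inS S [] = true := rfl
theorem inS_cons {S g : ℕ} {w : List ℕ} : inS S (g :: w) = true ↔ tb S g = true ∧ inS S w = true := band_iff
theorem inS_append {S : ℕ} {u v : List ℕ} : inS S (u ++ v) = true ↔ inS S u = true ∧ inS S v = true := by
  simp only [inS_iff, List.mem_append]
  exact ⟨fun h => ⟨fun g e => h g (Or.inl e), fun g e => h g (Or.inr e)⟩, fun h g e => e.elim (h.1 g) (h.2 g)⟩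
theorem inS_reverse {S : ℕ} {u : List ℕ} : inS S u.reverse = true ↔ inS S u = true := by
  simp only [inS_iff, List.mem_reverse]

/-- inclusion of masks -/
noncomputable def sub (S T : ℕ) : Bool := Nat.beq (Nat.land S T) S

theorem tb_sub {S T g : ℕ} (h : sub S T = true) (hg : tb S g = true) : tb T g = true := by
  have e : S &&& T = S := beq_iff.1 h
  rw [tb_eq] at *
  rw [← e, Nat.testBit_and, Bool.and_eq_true] at hg
  exact hg.2

theorem inS_sub {S T : ℕ} (h : sub S T = true) {w : List ℕ} (hw : inS S w = true) : inS T w = true :=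
  inS_iff.2 fun g hg => tb_sub h (inS_iff.1 hw g hg)

/-- the letters of the mask are involutions -/
def Sq (a : ℕ → X) (S : ℕ) : Prop := ∀ g, tb S g = true → a g * a g = 1

theorem Sq.mono {a : ℕ → X} {S T : ℕ} (h : Sq a T) (e : sub S T = true) : Sq a S := fun g hg => h g (tb_sub e hg)

theorem Sq.rev {a : ℕ → X} {S : ℕ} (h : Sq a S) {w : List ℕ} (hw : inS S w = true) :
    wd a w.reverse = (wd a w)⁻¹ := by
  induction w with
  | nil => simp
  | cons g w ih =>
    rw [inS_cons] at hw
    simp [ih hw.2, inv_eq_of_mul_eq_one_left (h g hw.1)]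

/-- the subgroup generated by the letters of a mask -/
def gp (a : ℕ → X) (S : ℕ) : Subgroup X := closure {x | ∃ g, tb S g = true ∧ a g = x}

theorem mem_gp {a : ℕ → X} {S g : ℕ} (h : tb S g = true) : a g ∈ gp a S := subset_closure ⟨g, h, rfl⟩

theorem wd_mem {a : ℕ → X} {S : ℕ} {K : Subgroup X} (hK : ∀ g, tb S g = true → a g ∈ K) {w : List ℕ}
    (hw : inS S w = true) : wd a w ∈ K := by
  induction w with
  | nil => exact K.one_mem
  | cons g w ih =>
    rw [inS_cons] at hw
    rw [wd_cons]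
    exact K.mul_mem (hK g hw.1) (ih hw.2)

theorem wd_mem_gp {a : ℕ → X} {S : ℕ} {w : List ℕ} (hw : inS S w = true) : wd a w ∈ gp a S :=
  wd_mem (fun _ => mem_gp) hw

theorem gp_le {a : ℕ → X} {S : ℕ} {K : Subgroup X} (hK : ∀ g, tb S g = true → a g ∈ K) : gp a S ≤ K :=
  (closure_le _).2 (by rintro _ ⟨g, hg, rfl⟩; exact hK g hg)

theorem Sq.exists_wd {a : ℕ → X} {S : ℕ} (h : Sq a S) {x : X} (hx : x ∈ gp a S) :
    ∃ w, inS S w = true ∧ wd a w = x := by
  induction hx using closure_induction with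
  | mem x hx => obtain ⟨g, hg, rfl⟩ := hx; exact ⟨[g], inS_cons.2 ⟨hg, rfl⟩, by simp⟩
  | one => exact ⟨[], rfl, rfl⟩
  | mul x y _ _ hx hy =>
    obtain ⟨u, u1, rfl⟩ := hx
    obtain ⟨v, v1, rfl⟩ := hy
    exact ⟨u ++ v, inS_append.2 ⟨u1, v1⟩, wd_append _ _ _⟩
  | inv x _ hx =>
    obtain ⟨u, u1, rfl⟩ := hx
    exact ⟨u.reverse, inS_reverse.2 u1, h.rev u1⟩

/-- a table of involutions -/
structure Tb (S n : ℕ) (act : ℕ → ℕ → ℕ) : Prop where
  lt : ∀ g, tb S g = true → ∀ p < n, act g p < n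
  inv : ∀ g, tb S g = true → ∀ p < n, act g (act g p) = p

theorem Tb.run_lt {S n : ℕ} {act : ℕ → ℕ → ℕ} (h : Tb S n act) {w : List ℕ} (hw : inS S w = true) {p : ℕ}
    (hp : p < n) : run act w p < n := by
  induction w generalizing p with
  | nil => exact hp
  | cons g w ih =>
    rw [inS_cons] at hw
    rw [run_cons]; exact ih hw.2 (h.lt g hw.1 p hp)

theorem Tb.run_rev {S n : ℕ} {act : ℕ → ℕ → ℕ} (h : Tb S n act) {w : List ℕ} (hw : inS S w = true) {p : ℕ}
    (hp : p < n) : run act w.reverse (run act w p) = p := by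
  induction w generalizing p with
  | nil => rfl
  | cons g w ih =>
    rw [inS_cons] at hw
    rw [List.reverse_cons, run_append, run_cons, run_cons, ih hw.2 (h.lt g hw.1 p hp), run_nil, h.inv g hw.1 p hp]

theorem Tb.run_rev' {S n : ℕ} {act : ℕ → ℕ → ℕ} (h : Tb S n act) {w : List ℕ} (hw : inS S w = true) {p : ℕ}
    (hp : p < n) : run act w (run act w.reverse p) = p := by
  have := h.run_rev (inS_reverse.2 hw) hp
  rwa [List.reverse_reverse] at this

theorem Tb.run_inj {S n : ℕ} {act : ℕ → ℕ → ℕ} (h : Tb S n act) {w : List ℕ} (hw : inS S w = true) {p q : ℕ}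
    (hp : p < n) (hq : q < n) (e : run act w p = run act w q) : p = q := by
  rw [← h.run_rev hw hp, e, h.run_rev hw hq]

/-- checker for `Tb`; letters are `< 16` -/
noncomputable def tbChk (S n : ℕ) (act : ℕ → ℕ → ℕ) (p : ℕ) : Bool :=
  allLt 16 fun g => bor (TC.bne (Nat.land (Nat.shiftRight S g) 1) 1)
    (frc (act g p) fun q => band (blt q n) (Nat.beq (act g q) p))

theorem lt16 {S g : ℕ} (hS : S < 65536) (hg : tb S g = true) : g < 16 := by
  by_contra h
  rw [tb_eq, Nat.testBit_lt_two_pow (lt_of_lt_of_le hS (by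
    calc 65536 = 2 ^ 16 := rfl
      _ ≤ 2 ^ g := Nat.pow_le_pow_right two_pos (by omega)))] at hg
  cases hg

theorem or_tb {S g : ℕ} {b : Bool} (h : bor (TC.bne (Nat.land (Nat.shiftRight S g) 1) 1) b = true)
    (hg : tb S g = true) : b = true := by
  rcases bor_iff.1 h with e | e
  · exact absurd (beq_iff.1 hg) (bne_iff.1 e)
  · exact e

theorem Tb.of_chk {S n : ℕ} {act : ℕ → ℕ → ℕ} (hS : S < 65536) (h : ∀ p < n, tbChk S n act p = true) :
    Tb S n act := by
  have k : ∀ g, tb S g = true → ∀ p < n, act g p < n ∧ act g (act g p) = p := fun g hg p hp => by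
    have := or_tb (allLt_spec (h p hp) g (lt16 hS hg)) hg
    rwa [frc_eq, band_iff, blt_iff, beq_iff] at this
  exact ⟨fun g hg p hp => (k g hg p hp).1, fun g hg p hp => (k g hg p hp).2⟩

/-- the table is an action of the group generated by the letters -/
structure Mod (a : ℕ → X) (S n : ℕ) (act : ℕ → ℕ → ℕ) : Prop extends Tb S n act where
  sq : Sq a S
  cmp : ∀ w, inS S w = true → wd a w = 1 → ∀ p < n, run act w p = p

theorem Mod.eq {a : ℕ → X} {S n : ℕ} {act : ℕ → ℕ → ℕ} (M : Mod a S n act) {u v : List ℕ} (hu : inS S u = true)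
    (hv : inS S v = true) (e : wd a u = wd a v) {p : ℕ} (hp : p < n) : run act u p = run act v p := by
  have := M.cmp (u ++ v.reverse) (inS_append.2 ⟨hu, inS_reverse.2 hv⟩)
    (by rw [wd_append, M.sq.rev hv, e, mul_inv_cancel]) p hp
  rw [run_append] at this
  rw [← M.run_rev' hv (M.run_lt hu hp), this]

/-- the word fixes the points of the list -/
noncomputable def fixB (act : ℕ → ℕ → ℕ) (B w : List ℕ) : Bool := allL B fun b => Nat.beq (run act w b) b

/-- the words agree on the points of the list -/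
noncomputable def eqB (act : ℕ → ℕ → ℕ) (B u v : List ℕ) : Bool :=
  allL B fun b => Nat.beq (run act u b) (run act v b)

theorem fixB_iff {act : ℕ → ℕ → ℕ} {B w : List ℕ} : fixB act B w = true ↔ ∀ b ∈ B, run act w b = b := by
  simp only [fixB, allL_iff, beq_iff]

theorem eqB_iff {act : ℕ → ℕ → ℕ} {B u v : List ℕ} :
    eqB act B u v = true ↔ ∀ b ∈ B, run act u b = run act v b := by
  simp only [eqB, allL_iff, beq_iff]

/-- every word in the letters of `S` which fixes the points of `B` is a relator -/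
def Rel (a : ℕ → X) (act : ℕ → ℕ → ℕ) (S : ℕ) (B : List ℕ) : Prop :=
  ∀ w, inS S w = true → fixB act B w = true → wd a w = 1

theorem Rel.mono {a : ℕ → X} {act : ℕ → ℕ → ℕ} {S T : ℕ} {B : List ℕ} (h : Rel a act T B) (e : sub S T = true) :
    Rel a act S B := fun w hw => h w (inS_sub e hw)

theorem Rel.monoB {a : ℕ → X} {act : ℕ → ℕ → ℕ} {S : ℕ} {B B' : List ℕ} (h : Rel a act S B) (e : B ⊆ B') :
    Rel a act S B' := fun w hw hf => h w hw (fixB_iff.2 fun b hb => fixB_iff.1 hf b (e hb))

theorem Rel.eq {a : ℕ → X} {act : ℕ → ℕ → ℕ} {S n : ℕ} {B : List ℕ} (h : Rel a act S B) (T : Tb S n act)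
    (sq : Sq a S) (hB : ∀ b ∈ B, b < n) {u v : List ℕ} (hu : inS S u = true) (hv : inS S v = true)
    (e : eqB act B u v = true) : wd a u = wd a v := by
  have := h (u ++ v.reverse) (inS_append.2 ⟨hu, inS_reverse.2 hv⟩) (fixB_iff.2 fun b hb => by
    rw [run_append, eqB_iff.1 e b hb, T.run_rev hv (hB b hb)])
  rwa [wd_append, sq.rev hv, mul_inv_eq_one] at this

theorem Rel.zero (a : ℕ → X) (act : ℕ → ℕ → ℕ) (B : List ℕ) : Rel a act 0 B := fun w hw _ => by
  cases w with
  | nil => rfl
  | cons g w => have := (inS_cons.1 hw).1; rw [tb_eq, Nat.zero_testBit] at this; cases this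

/-- decode a word (hexadecimal digits, least significant first) -/
noncomputable def dec (fuel : ℕ) : ℕ → List ℕ :=
  Nat.rec (fun _ => []) (fun _ ih w => Nat.rec [] (fun d _ => Nat.succ d :: frc (Nat.shiftRight w 4) ih)
    (Nat.land w 15)) fuel

/-- equality of words -/
noncomputable def leq (u : List ℕ) : List ℕ → Bool :=
  List.rec (fun v => List.rec true (fun _ _ _ => false) v)
    (fun a _ ih v => List.rec false (fun b t _ => band (Nat.beq a b) (ih t)) v) u

theorem leq_spec {u v : List ℕ} (h : leq u v = true) : u = v := by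
  induction u generalizing v with
  | nil => cases v with
    | nil => rfl
    | cons b t => cases h
  | cons a u ih => cases v with
    | nil => cases h
    | cons b t =>
      have h' : band (Nat.beq a b) (leq u t) = true := h
      rw [band_iff, beq_iff] at h'
      rw [h'.1, ih h'.2]

/-! ### certificates -/

/-- data of a certificate -/
structure Cert where
  n : ℕ
  m : ℕ
  S : ℕ
  S0 : ℕ
  df : ℕ → ℕ
  fact : ℕ → ℕ
  tab : ℕ → ℕ → ℕ
  val : ℕ → List ℕ → Bool

/-- reversed tree word -/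
noncomputable def rtw (df : ℕ → ℕ) (fuel : ℕ) : ℕ → List ℕ :=
  Nat.rec (fun _ => []) (fun _ ih p => frc (df p) fun d =>
    Nat.land d 15 :: frc (Nat.shiftRight d 12) ih) fuel

/-- depth of a point -/
noncomputable def dpt (df : ℕ → ℕ) (p : ℕ) : ℕ := Nat.land (Nat.shiftRight (df p) 4) 255

/-- the word of a point -/
noncomputable def tw (df : ℕ → ℕ) (p : ℕ) : List ℕ := frc (dpt df p) fun k => rtw df k p

theorem tw_zero {df : ℕ → ℕ} {p : ℕ} (h : dpt df p = 0) : tw df p = [] := by
  unfold tw; rw [frc_eq, h]; rfl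

theorem tw_succ {df : ℕ → ℕ} {p : ℕ} (h : dpt df p = dpt df (Nat.shiftRight (df p) 12) + 1) :
    tw df p = Nat.land (df p) 15 :: tw df (Nat.shiftRight (df p) 12) := by
  unfold tw; rw [frc_eq, frc_eq, h]
  show (frc (df p) fun d => Nat.land d 15 :: frc (Nat.shiftRight d 12) (rtw df _)) = _
  rw [frc_eq, frc_eq]

/-- conditional `cons` -/
noncomputable def cns (g : ℕ) (w : List ℕ) : List ℕ := Nat.rec w (fun h _ => Nat.succ h :: w) g

/-- letter `0` is the identity -/
def ax (a : ℕ → X) (g : ℕ) : X := if g = 0 then 1 else a g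

theorem wd_cns (a : ℕ → X) (g : ℕ) (w : List ℕ) : wd a (cns g w) = ax a g * wd a w := by
  cases g with
  | zero => simp [ax, cns]
  | succ h => simp [ax, cns]

/-- walk along earlier facts -/
noncomputable def walk (fact : ℕ → ℕ) (j : ℕ) (k : ℕ → List ℕ → Bool) (fuel : ℕ) : ℕ → ℕ → List ℕ → Bool :=
  Nat.rec (fun _ _ _ => false) (fun _ ih s c acc =>
    Nat.rec (k c acc) (fun i _ => band (blt i j) (frc (fact i) fun f =>
      frc (Nat.land f 1048575) fun p => frc (Nat.land (Nat.shiftRight f 20) 1048575) fun q =>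
      frc (Nat.shiftRight f 40) fun g => frc (Nat.shiftRight s 20) fun s' =>
      Bool.rec (band (Nat.beq c q) (ih s' p (cns g acc))) (ih s' q (cns g acc)) (Nat.beq c p)))
      (Nat.land s 1048575)) fuel

/-- check of one fact -/
noncomputable def Cert.one (C : Cert) (j s : ℕ) : Bool :=
  frc (C.fact j) fun f => frc (Nat.land f 1048575) fun p => frc (Nat.land (Nat.shiftRight f 20) 1048575) fun q =>
    frc (Nat.shiftRight f 40) fun g => band (bor (Nat.beq g 0) (tb C.S g))
      (Nat.rec (frc (C.df q) fun d => band (TC.bne g 0) (band (Nat.beq (Nat.land d 15) g)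
          (band (Nat.beq (Nat.shiftRight d 12) p) (Nat.beq (dpt C.df q) (Nat.succ (dpt C.df p))))))
        (fun r _ => Nat.rec (band (Nat.beq p 0) (band (Nat.beq q 0) (band (TC.bne g 0) (tb C.S0 g))))
          (fun u _ => frc (Nat.shiftRight s 20) fun s' =>
            walk C.fact j (fun c acc => band (Nat.beq c q) (C.val u (cns g acc))) 1000 s' p []) r)
        (Nat.land s 1048575))

/-- check of a block of facts -/
noncomputable def Cert.blk (C : Cert) (cnt : ℕ) : ℕ → ℕ → Bool :=
  Nat.rec (fun _ _ => true) (fun _ ih j s => frc (Nat.land s 1048575) fun l =>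
    frc (Nat.shiftRight s 20) fun s' =>
    band (frc (Nat.land s' (Nat.pred (Nat.shiftLeft 1 l))) (C.one j))
      (frc (Nat.shiftRight s' l) fun s'' => frc (Nat.succ j) fun j' => ih j' s'')) cnt

/-- check of the block number `k` (of 32 facts) -/
noncomputable def Cert.chkB (C : Cert) (pf : ℕ → ℕ) (k : ℕ) : Bool :=
  frc (Nat.mul k 32) fun j => frc (pf k) fun s => C.blk 32 j s

/-- check of the final table -/
noncomputable def Cert.chkT (C : Cert) (p : ℕ) : Bool :=
  band (inS C.S (tw C.df p)) (allLt 16 fun g => bor (TC.bne (Nat.land (Nat.shiftRight C.S g) 1) 1)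
    (frc (C.tab g p) fun i => band (blt i (Nat.mul C.m 32)) (frc (C.fact i) fun f =>
      band (Nat.beq (Nat.shiftRight f 40) g)
      (frc (Nat.land f 1048575) fun p' => frc (Nat.land (Nat.shiftRight f 20) 1048575) fun q =>
        bor (band (Nat.beq p' p) (blt q C.n)) (band (Nat.beq q p) (blt p' C.n))))))

section sound

/-- meaning of a fact -/
def Fc (a : ℕ → X) (K : Subgroup X) (df : ℕ → ℕ) (p g q : ℕ) : Prop :=
  ax a g * ax a g = 1 ∧ (wd a (tw df p))⁻¹ * ax a g * wd a (tw df q) ∈ K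

theorem Fc.symm {a : ℕ → X} {K : Subgroup X} {df : ℕ → ℕ} {p g q : ℕ} (h : Fc a K df p g q) : Fc a K df q g p :=
  ⟨h.1, by simpa [mul_assoc, inv_eq_of_mul_eq_one_left h.1] using K.inv_mem h.2⟩

/-- meaning of a coded fact -/
def Fcc (a : ℕ → X) (K : Subgroup X) (df : ℕ → ℕ) (f : ℕ) : Prop :=
  Fc a K df (Nat.land f 1048575) (Nat.shiftRight f 40) (Nat.land (Nat.shiftRight f 20) 1048575)

theorem walk_spec {a : ℕ → X} {K : Subgroup X} {df fact : ℕ → ℕ} {j : ℕ} (hj : ∀ i < j, Fcc a K df (fact i))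
    {k : ℕ → List ℕ → Bool} {p : ℕ} (fuel : ℕ) : ∀ s c acc, walk fact j k fuel s c acc = true →
      (wd a (tw df c))⁻¹ * wd a acc * wd a (tw df p) ∈ K →
      ∃ c acc, k c acc = true ∧ (wd a (tw df c))⁻¹ * wd a acc * wd a (tw df p) ∈ K := by
  induction fuel with
  | zero => intro s c acc h; cases h
  | succ n ih =>
    intro s c acc h hK
    have h' : (Nat.rec (k c acc) (fun i _ => band (blt i j) (frc (fact i) fun f =>
      frc (Nat.land f 1048575) fun p => frc (Nat.land (Nat.shiftRight f 20) 1048575) fun q =>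
      frc (Nat.shiftRight f 40) fun g => frc (Nat.shiftRight s 20) fun s' =>
      Bool.rec (band (Nat.beq c q) (walk fact j k n s' p (cns g acc))) (walk fact j k n s' q (cns g acc))
        (Nat.beq c p))) (Nat.land s 1048575) : Bool) = true := h
    cases hs : Nat.land s 1048575 with
    | zero => rw [hs] at h'; exact ⟨c, acc, h', hK⟩
    | succ i =>
      rw [hs] at h'
      have h2 : band (blt i j) _ = true := h'
      rw [band_iff, blt_iff, frc_eq, frc_eq, frc_eq, frc_eq, frc_eq] at h2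
      obtain ⟨h3, h4⟩ := h2
      have F := hj i h3
      have step : ∀ x y g, Fc a K df y g x → c = x →
          (wd a (tw df y))⁻¹ * wd a (cns g acc) * wd a (tw df p) ∈ K := fun x y g e1 e2 => by
        have := K.mul_mem e1.2 (e2 ▸ hK)
        rw [wd_cns]
        simpa [mul_assoc] using this
      cases hb : Nat.beq c (Nat.land (fact i) 1048575) with
      | true =>
        rw [hb] at h4
        exact ih _ _ _ h4 (step _ _ _ F.symm (beq_iff.1 hb))
      | false =>
        rw [hb] at h4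
        have h5 : band _ _ = true := h4
        rw [band_iff, beq_iff] at h5
        exact ih _ _ _ h5.2 (step _ _ _ F h5.1)

variable {a : ℕ → X} {C : Cert}

theorem one_spec (sq : Sq a C.S) (h0 : dpt C.df 0 = 0) (hval : ∀ u w, C.val u w = true → wd a w = 1) {j s : ℕ}
    (hj : ∀ i < j, Fcc a (gp a C.S0) C.df (C.fact i)) (h : C.one j s = true) :
    Fcc a (gp a C.S0) C.df (C.fact j) := by
  unfold Cert.one at h
  rw [frc_eq, frc_eq, frc_eq, frc_eq, band_iff, bor_iff, beq_iff] at h
  obtain ⟨h1, h2⟩ := h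
  unfold Fcc
  generalize Nat.land (C.fact j) 1048575 = p at *
  generalize Nat.land (Nat.shiftRight (C.fact j) 20) 1048575 = q at *
  generalize Nat.shiftRight (C.fact j) 40 = g at *
  have e1 : ax a g * ax a g = 1 := by
    unfold ax; split_ifs with e
    exacts [mul_one 1, sq g (h1.resolve_left e)]
  refine ⟨e1, ?_⟩
  cases hs : Nat.land s 1048575 with
  | zero =>
    rw [hs] at h2
    have h3 : frc (C.df q) _ = true := h2
    rw [frc_eq, band_iff, band_iff, band_iff, bne_iff, beq_iff, beq_iff, beq_iff] at h3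
    obtain ⟨k1, k2, k3, k4⟩ := h3
    rw [tw_succ (p := q) (by rw [k3]; exact k4), k2, k3, wd_cons, mul_assoc, ← mul_assoc (ax a g)]
    rw [show a g = ax a g from (if_neg k1).symm, e1, one_mul, inv_mul_cancel]
    exact one_mem _
  | succ r =>
    rw [hs] at h2
    cases r with
    | zero =>
      have h3 : band _ _ = true := h2
      rw [band_iff, band_iff, band_iff, beq_iff, beq_iff, bne_iff] at h3
      obtain ⟨rfl, rfl, k1, k2⟩ := h3
      rw [tw_zero h0, wd_nil, inv_one, one_mul, mul_one, ax, if_neg k1]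
      exact mem_gp k2
    | succ u =>
      have h3 : frc (Nat.shiftRight s 20) _ = true := h2
      rw [frc_eq] at h3
      obtain ⟨c, acc, k1, k2⟩ := walk_spec (p := p) hj _ _ _ _ h3 (by simpa using one_mem _)
      rw [band_iff, beq_iff] at k1
      obtain ⟨rfl, k1⟩ := k1
      have k3 := hval _ _ k1
      rw [wd_cns] at k3
      rw [eq_inv_of_mul_eq_one_right k3, inv_eq_of_mul_eq_one_left e1] at k2
      exact (Fc.symm ⟨e1, k2⟩).2

theorem blk_spec (sq : Sq a C.S) (h0 : dpt C.df 0 = 0) (hval : ∀ u w, C.val u w = true → wd a w = 1) (cnt : ℕ) :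
    ∀ j s, (∀ i < j, Fcc a (gp a C.S0) C.df (C.fact i)) → C.blk cnt j s = true →
      ∀ i < j + cnt, Fcc a (gp a C.S0) C.df (C.fact i) := by
  induction cnt with
  | zero => intro j s hj _; exact hj
  | succ n ih =>
    intro j s hj h
    have h' : frc (Nat.land s 1048575) (fun l => frc (Nat.shiftRight s 20) fun s' =>
      band (frc (Nat.land s' (Nat.pred (Nat.shiftLeft 1 l))) (C.one j))
      (frc (Nat.shiftRight s' l) fun s'' => frc (Nat.succ j) fun j' => C.blk n j' s'')) = true := h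
    rw [frc_eq, frc_eq, band_iff, frc_eq, frc_eq, frc_eq] at h'
    have F := one_spec sq h0 hval hj h'.1
    intro i hi
    refine ih _ _ (fun i hi => ?_) h'.2 i (by omega)
    rcases Nat.lt_succ_iff_lt_or_eq.1 hi with e | e
    exacts [hj i e, e ▸ F]

theorem facts_spec (sq : Sq a C.S) (h0 : dpt C.df 0 = 0) (hval : ∀ u w, C.val u w = true → wd a w = 1)
    {pf : ℕ → ℕ} (hB : ∀ k < C.m, C.chkB pf k = true) : ∀ i < C.m * 32, Fcc a (gp a C.S0) C.df (C.fact i) := by
  have : ∀ k ≤ C.m, ∀ i < k * 32, Fcc a (gp a C.S0) C.df (C.fact i) := by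
    intro k
    induction k with
    | zero => intro _ i hi; omega
    | succ k ih =>
      intro hk i hi
      have h := hB k hk
      unfold Cert.chkB at h
      rw [frc_eq, frc_eq] at h
      exact blk_spec sq h0 hval 32 _ _ (ih (by omega)) h i (by show i < k * 32 + 32; omega)
  exact this _ le_rfl

/-- a checked certificate -/
structure Cert.OK (C : Cert) : Prop where
  lt : C.S < 65536
  nz : tb C.S 0 = false
  pos : 0 < C.n
  sub : sub C.S0 C.S = true
  root : dpt C.df 0 = 0
  blk : ∃ pf : ℕ → ℕ, ∀ k < C.m, C.chkB pf k = true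
  tab : ∀ p < C.n, C.chkT p = true

theorem Cert.OK.inS (h : C.OK) {p : ℕ} (hp : p < C.n) : inS C.S (tw C.df p) = true :=
  (band_iff.1 (h.tab p hp)).1

theorem Cert.OK.cover (h : C.OK) (sq : Sq a C.S) (hval : ∀ u w, C.val u w = true → wd a w = 1) {w : List ℕ}
    (hw : PM.inS C.S w = true) : ∃ p < C.n, wd a w * wd a (tw C.df p) ∈ gp a C.S0 := by
  obtain ⟨pf, hB⟩ := h.blk
  have F := facts_spec sq h.root hval hB
  induction w using List.reverseRecOn with
  | nil => exact ⟨0, h.pos, by rw [tw_zero h.root]; simpa using one_mem _⟩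
  | append_singleton w g ih =>
    rw [inS_append, inS_cons] at hw
    obtain ⟨p, hp, e⟩ := ih hw.1
    have k := or_tb (allLt_spec (band_iff.1 (h.tab p hp)).2 g (lt16 h.lt hw.2.1)) hw.2.1
    rw [frc_eq, band_iff, blt_iff, frc_eq, band_iff, beq_iff, frc_eq, frc_eq, bor_iff, band_iff, band_iff,
      beq_iff, beq_iff, blt_iff, blt_iff] at k
    obtain ⟨k1, k2, k3⟩ := k
    have f := F _ k1
    unfold Fcc at f
    rw [k2] at f
    have g0 : ax a g = a g := if_neg (by rintro rfl; rw [h.nz] at hw; cases hw.2.1)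
    have fin : ∀ q, Fc a (gp a C.S0) C.df p g q → wd a (w ++ [g]) * wd a (tw C.df q) ∈ gp a C.S0 := fun q e' => by
      have := mul_mem e e'.2
      rw [g0] at this
      simpa [mul_assoc] using this
    rcases k3 with ⟨k3, k4⟩ | ⟨k3, k4⟩
    · exact ⟨_, k4, fin _ (by rw [k3] at f; exact f)⟩
    · exact ⟨_, k4, fin _ (by rw [k3] at f; exact f.symm)⟩

theorem Cert.OK.cover' (h : C.OK) (sq : Sq a C.S) (hval : ∀ u w, C.val u w = true → wd a w = 1) {w : List ℕ}
    (hw : PM.inS C.S w = true) : ∃ p < C.n, ∃ u, PM.inS C.S0 u = true ∧ wd a (w ++ tw C.df p) = wd a u := by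
  obtain ⟨p, hp, e⟩ := h.cover sq hval hw
  obtain ⟨u, u1, u2⟩ := (sq.mono h.sub).exists_wd e
  exact ⟨p, hp, u, u1, by rw [wd_append, u2]⟩

end sound

end CA.PM

theorem CA.PM.realizeEqnsW : True := by
  have := @CA.PM.wd.eq_1.{0}
  have := @CA.PM.wd.eq_def.{0}
  have := @CA.PM.wd.congr_simp.{0}
  have := @CA.PM.tw.eq_1
  have := @CA.PM.tw.eq_def
  have := @CA.PM.tw.congr_simp
  have := @CA.PM.Fcc.eq_1.{0}
  have := @CA.PM.Fcc.eq_def.{0}
  have := @CA.PM.Fcc.congr_simp.{0}
  have := @CA.PM.Sq.eq_1.{0}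
  have := @CA.PM.Sq.eq_def.{0}
  have := @CA.PM.Sq.congr_simp.{0}
  have := @CA.PM.cns.eq_1
  have := @CA.PM.cns.eq_def
  have := @CA.PM.cns.congr_simp
  have := @CA.PM.Cert.one.eq_1
  have := @CA.PM.Cert.one.eq_def
  have := @CA.PM.Cert.one.congr_simp
  have := @CA.PM.Cert.blk.eq_1
  have := @CA.PM.Cert.blk.eq_def
  have := @CA.PM.Cert.blk.congr_simp
  have := @CA.PM.rtw.eq_1
  have := @CA.PM.rtw.eq_def
  have := @CA.PM.rtw.congr_simp
  have := @CA.PM.dec.eq_1
  have := @CA.PM.dec.eq_def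
  have := @CA.PM.dec.congr_simp
  have := @CA.PM.fixB.eq_1
  have := @CA.PM.fixB.eq_def
  have := @CA.PM.fixB.congr_simp
  have := @CA.PM.sub.eq_1
  have := @CA.PM.sub.eq_def
  have := @CA.PM.sub.congr_simp
  have := @CA.PM.dpt.eq_1
  have := @CA.PM.dpt.eq_def
  have := @CA.PM.dpt.congr_simp
  have := @CA.PM.Cert.chkT.eq_1
  have := @CA.PM.Cert.chkT.eq_def
  have := @CA.PM.Cert.chkT.congr_simp
  have := @CA.PM.inS.eq_1
  have := @CA.PM.inS.eq_def
  have := @CA.PM.inS.congr_simp
  have := @CA.PM.Fc.eq_1.{0}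
  have := @CA.PM.Fc.eq_def.{0}
  have := @CA.PM.Fc.congr_simp.{0}
  have := @CA.PM.eqB.eq_1
  have := @CA.PM.eqB.eq_def
  have := @CA.PM.eqB.congr_simp
  have := @CA.PM.Cert.chkB.eq_1
  have := @CA.PM.Cert.chkB.eq_def
  have := @CA.PM.Cert.chkB.congr_simp
  have := @CA.PM.walk.eq_1
  have := @CA.PM.walk.eq_def
  have := @CA.PM.walk.congr_simp
  have := @CA.PM.tb.eq_1
  have := @CA.PM.tb.eq_def
  have := @CA.PM.tb.congr_simp
  have := @CA.PM.Rel.eq_1.{0}
  have := @CA.PM.Rel.eq_def.{0}
  have := @CA.PM.Rel.congr_simp.{0}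
  have := @CA.PM.gp.eq_1.{0}
  have := @CA.PM.gp.eq_def.{0}
  have := @CA.PM.gp.congr_simp.{0}
  have := @CA.PM.ax.eq_1.{0}
  have := @CA.PM.ax.eq_def.{0}
  have := @CA.PM.ax.congr_simp.{0}
  have := @CA.PM.tbChk.eq_1
  have := @CA.PM.tbChk.eq_def
  have := @CA.PM.tbChk.congr_simp
  have := @CA.PM.run.eq_1
  have := @CA.PM.run.eq_def
  have := @CA.PM.run.congr_simp
  have := @CA.PM.leq.eq_1
  have := @CA.PM.leq.eq_def
  have := @CA.PM.leq.congr_simp
  trivial
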