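/-
Consequences of coset-enumeration certificates; enumeration of subgroups; permutation models.
-/
import Cfsg.Agent.PM.W

set_option autoImplicit false

namespace CA.PM

open CA.TC Subgroup

variable {X : Type*} [Group X]

/-! ### standard validity oracle -/

/-- entry of a list -/
noncomputable def nth {α : Type} (d : α) (l : List α) : ℕ → α :=
  List.rec (fun _ => d) (fun a _ ih i => Nat.rec a (fun k _ => ih k) i) l

theorem nth_mem {α : Type} (d : α) (l : List α) (i : ℕ) : nth d l i = d ∨ nth d l i ∈ l := by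
  induction l generalizing i with
  | nil => exact Or.inl rfl
  | cons a t ih =>
    cases i with
    | zero => exact Or.inr List.mem_cons_self
    | succ k => exact (ih k).imp id (List.mem_cons_of_mem _)

/-- rotation: `rot l i acc = drop i l ++ acc ++ take i l` for the continuation form of `acc` -/
noncomputable def rot (l : List ℕ) : ℕ → (List ℕ → List ℕ) → List ℕ :=
  List.rec (fun _ k => k []) (fun a t ih i k => Nat.rec (List.rec (k []) (fun b _ r => b :: r) (a :: t))
    (fun j _ => ih j (fun r => k (a :: r))) i) l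

theorem wd_rot {a : ℕ → X} (l : List ℕ) : ∀ (i : ℕ) (k : List ℕ → List ℕ) (y : X),
    (∀ r, wd a (k r) = y * wd a r) → y * wd a l = 1 → wd a (rot l i k) = 1 := by
  induction l with
  | nil => intro i k y h1 h2; exact (h1 []).trans h2
  | cons g t ih =>
    intro i k y h1 h2
    cases i with
    | zero =>
      have : ∀ l : List ℕ, wd a (List.rec (k []) (fun b _ r => b :: r) l : List ℕ) = wd a l * y := by
        intro l
        induction l with
        | nil => simpa using h1 []
        | cons b t ih => show wd a (b :: _) = _; rw [wd_cons, ih, wd_cons, mul_assoc]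
      exact (this _).trans (mul_eq_one_comm.1 h2)
    | succ j =>
      exact ih j (fun r => k (g :: r)) (y * a g) (fun r => by rw [h1, wd_cons, mul_assoc])
        (by rw [← h2, wd_cons, mul_assoc])

/-- trivial relators -/
noncomputable def triv (S : ℕ) (w : List ℕ) : Bool :=
  List.rec true (fun x t _ => band (tb S x) (leq t [x])) w

/-- the standard validity oracle -/
noncomputable def valS (S : ℕ) (act : ℕ → ℕ → ℕ) (Rs : List (ℕ × List ℕ)) (E : List (List ℕ)) (u : ℕ)
    (w : List ℕ) : Bool :=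
  Bool.rec (Nat.rec (triv S w) (fun v _ => Prod.rec (fun T B => band (inS T w) (fixB act B w)) (nth (0, []) Rs v)) u)
    (leq w (rot (nth [] E (Nat.pred (Nat.shiftRight u 10))) (Nat.land u 1023) fun r => r)) (Nat.ble 1024 u)

theorem valS_spec {a : ℕ → X} {S : ℕ} {act : ℕ → ℕ → ℕ} {Rs : List (ℕ × List ℕ)} {E : List (List ℕ)}
    (sq : Sq a S) (hR : ∀ r ∈ Rs, Rel a act r.1 r.2) (hE : ∀ r ∈ E, wd a r = 1) (u : ℕ) (w : List ℕ)
    (h : valS S act Rs E u w = true) : wd a w = 1 := by
  unfold valS at h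
  cases hb : Nat.ble 1024 u with
  | true =>
    rw [hb] at h
    rw [leq_spec h]
    refine wd_rot _ _ _ 1 (fun r => (one_mul _).symm) ?_
    rw [one_mul]
    rcases nth_mem [] E (Nat.pred (Nat.shiftRight u 10)) with e | e
    exacts [by rw [e]; rfl, hE _ e]
  | false =>
    rw [hb] at h
    cases u with
    | zero =>
      cases w with
      | nil => rfl
      | cons x t =>
        have h' : band (tb S x) (leq t [x]) = true := h
        rw [band_iff] at h'
        rw [leq_spec h'.2]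
        simpa using sq x h'.1
    | succ v =>
      have h' : (Prod.rec (fun T B => band (inS T w) (fixB act B w)) (nth (0, []) Rs v) : Bool) = true := h
      have k : Rel a act (nth (0, []) Rs v).1 (nth (0, []) Rs v).2 := by
        rcases nth_mem (0, []) Rs v with e | e
        exacts [by rw [e]; exact Rel.zero _ _ _, hR _ e]
      generalize nth (0, []) Rs v = r at h' k
      obtain ⟨T, B⟩ := r
      exact k w (band_iff.1 h').1 (band_iff.1 h').2

/-! ### separation -/

/-- the label is invariant under the letters of the mask -/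
noncomputable def invChk (S : ℕ) (act : ℕ → ℕ → ℕ) (f : ℕ → ℕ) (p : ℕ) : Bool :=
  allLt 16 fun g => bor (TC.bne (Nat.land (Nat.shiftRight S g) 1) 1) (Nat.beq (frc (act g p) f) (f p))

theorem inv_run {S SA n : ℕ} {act : ℕ → ℕ → ℕ} {f : ℕ → ℕ} (T : Tb SA n act) (hS : sub S SA = true)
    (hl : S < 65536) (h : ∀ p < n, invChk S act f p = true) {w : List ℕ} (hw : inS S w = true) {p : ℕ} (hp : p < n) :
    f (run act w p) = f p := by
  induction w generalizing p with
  | nil => rfl
  | cons g w ih =>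
    rw [inS_cons] at hw
    have := or_tb (allLt_spec (h p hp) g (lt16 hl hw.1)) hw.1
    rw [beq_iff, frc_eq] at this
    rw [run_cons, ih hw.2 (T.lt g (tb_sub hS hw.1) p hp), this]

/-- the word of the point `p` changes the label of some base point -/
noncomputable def sepChk (act : ℕ → ℕ → ℕ) (B : List ℕ) (f df : ℕ → ℕ) (p : ℕ) : Bool :=
  bor (Nat.beq p 0) (anyL B fun b => TC.bne (frc (run act (tw df p) b) f) (f b))

theorem sub_trans {S T U : ℕ} (h1 : sub S T = true) (h2 : sub T U = true) : sub S U = true := by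
  have e1 : S &&& T = S := beq_iff.1 h1
  have e2 : T &&& U = T := beq_iff.1 h2
  refine beq_iff.2 (show S &&& U = S from ?_)
  rw [← e1, Nat.and_assoc, e2]

theorem sub_lt {S T : ℕ} (h : sub S T = true) (hT : T < 65536) : S < 65536 := by
  have e1 : S &&& T = S := beq_iff.1 h
  rw [← e1]; exact lt_of_le_of_lt Nat.and_le_right hT

/-- separation data -/
structure Sep (C : Cert) (SA n : ℕ) (act : ℕ → ℕ → ℕ) (B : List ℕ) : Prop where
  sub : sub C.S SA = true
  lt : ∀ b ∈ B, b < n
  ex : ∃ f, (∀ p < n, invChk C.S0 act f p = true) ∧ ∀ p < C.n, sepChk act B f C.df p = true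

variable {a : ℕ → X} {C : Cert} {SA n : ℕ} {act : ℕ → ℕ → ℕ} {B : List ℕ}

theorem Cert.OK.stab (h : C.OK) (M : Mod a SA n act) (s : Sep C SA n act B)
    (hval : ∀ u w, C.val u w = true → wd a w = 1) {w : List ℕ} (hw : PM.inS C.S w = true)
    (hf : fixB act B w = true) : ∃ u, PM.inS C.S0 u = true ∧ wd a w = wd a u := by
  obtain ⟨p, hp, u, u1, u2⟩ := h.cover' (M.sq.mono s.sub) hval hw
  obtain ⟨f, f1, f2⟩ := s.ex
  have s0 := sub_trans h.sub s.sub
  rcases bor_iff.1 (f2 p hp) with e | e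
  · obtain rfl := beq_iff.1 e
    rw [tw_zero h.root, List.append_nil] at u2
    exact ⟨u, u1, u2⟩
  · obtain ⟨b, hb, e⟩ := anyL_spec e
    rw [bne_iff, frc_eq] at e
    have := M.eq (inS_sub s.sub (inS_append.2 ⟨hw, h.inS hp⟩)) (inS_sub s0 u1) u2 (s.lt b hb)
    rw [run_append, fixB_iff.1 hf b hb] at this
    rw [this, inv_run M.toTb s0 (sub_lt h.sub h.lt) f1 u1 (s.lt b hb)] at e
    exact absurd rfl e

theorem wd_prod {Y : Type*} [Group Y] (a : ℕ → X) (b : ℕ → Y) (w : List ℕ) :
    wd (fun i => (a i, b i)) w = (wd a w, wd b w) := by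
  induction w with
  | nil => rfl
  | cons g w ih => simp [ih]

theorem Mod.prod {Y : Type*} [Group Y] {b : ℕ → Y} (M : Mod b SA n act) (sq : Sq a SA) :
    Mod (fun i => (a i, b i)) SA n act :=
  ⟨M.toTb, fun g hg => Prod.ext (sq g hg) (M.sq g hg), fun w hw e => M.cmp w hw (by
    rw [wd_prod] at e; exact congrArg Prod.snd e)⟩

theorem Mod.mono {S : ℕ} (M : Mod a SA n act) (h : sub S SA = true) : Mod a S n act :=
  ⟨⟨fun g hg => M.lt g (tb_sub h hg), fun g hg => M.inv g (tb_sub h hg)⟩, M.sq.mono h,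
    fun w hw => M.cmp w (inS_sub h hw)⟩

theorem sub_refl (S : ℕ) : sub S S = true := beq_iff.2 (Nat.and_self S)

theorem Rel.step {Y : Type*} [Group Y] {b : ℕ → Y} (h : C.OK) (M : Mod b SA n act) (s : Sep C SA n act B)
    (sq : Sq a C.S) (hva : ∀ u w, C.val u w = true → wd a w = 1) (hvb : ∀ u w, C.val u w = true → wd b w = 1)
    (h0 : Rel a act C.S0 B) : Rel a act C.S B := fun w hw hf => by
  have M' := (M.mono s.sub).prod sq
  obtain ⟨u, u1, u2⟩ := h.stab M' ⟨sub_refl _, s.lt, s.ex⟩ (fun u w e => by rw [wd_prod, hva u w e, hvb u w e]; rfl) hw hf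
  have k := fun p hp => M'.eq hw (inS_sub h.sub u1) u2 (p := p) hp
  rw [wd_prod, wd_prod] at u2
  rw [show wd a w = wd a u from congrArg Prod.fst u2]
  exact h0 u u1 (fixB_iff.2 fun p hp => by rw [← k p (s.lt p hp), fixB_iff.1 hf p hp])

theorem Cert.OK.card_le (h : C.OK) (sq : Sq a C.S) (hval : ∀ u w, C.val u w = true → wd a w = 1)
    [Finite (gp a C.S0)] : Finite (gp a C.S) ∧ Nat.card (gp a C.S) ≤ C.n * Nat.card (gp a C.S0) := by
  have le : gp a C.S0 ≤ gp a C.S := gp_le fun g hg => mem_gp (tb_sub h.sub hg)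
  let F : Fin C.n × gp a C.S0 → gp a C.S := fun x =>
    ⟨x.2.1 * (wd a (tw C.df x.1))⁻¹, mul_mem (le x.2.2) (inv_mem (wd_mem_gp (h.inS x.1.2)))⟩
  have hF : Function.Surjective F := by
    rintro ⟨x, hx⟩
    obtain ⟨w, w1, rfl⟩ := sq.exists_wd hx
    obtain ⟨p, hp, e⟩ := h.cover sq hval w1
    exact ⟨(⟨p, hp⟩, ⟨_, e⟩), Subtype.ext (by simp [F])⟩
  exact ⟨Finite.of_surjective F hF, by simpa using Nat.card_le_card_of_surjective F hF⟩

/-! ### the action of elements -/

open Classical in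
/-- the image of a point under an element -/
noncomputable def img (a : ℕ → X) (S : ℕ) (act : ℕ → ℕ → ℕ) (x : X) (p : ℕ) : ℕ :=
  if h : ∃ w, inS S w = true ∧ wd a w = x then run act h.choose p else p

theorem Mod.img_wd (M : Mod a SA n act) {w : List ℕ} (hw : inS SA w = true) {p : ℕ} (hp : p < n) :
    img a SA act (wd a w) p = run act w p := by
  have h : ∃ u, inS SA u = true ∧ wd a u = wd a w := ⟨w, hw, rfl⟩
  unfold img
  rw [dif_pos h]
  exact M.eq h.choose_spec.1 hw h.choose_spec.2 hp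

theorem Mod.img_lt (M : Mod a SA n act) (x : X) {p : ℕ} (hp : p < n) : img a SA act x p < n := by
  unfold img
  split_ifs with h
  exacts [M.run_lt h.choose_spec.1 hp, hp]

theorem Mod.img_mul (M : Mod a SA n act) {x y : X} (hx : x ∈ gp a SA) (hy : y ∈ gp a SA) {p : ℕ} (hp : p < n) :
    img a SA act (x * y) p = img a SA act y (img a SA act x p) := by
  obtain ⟨u, u1, rfl⟩ := M.sq.exists_wd hx
  obtain ⟨v, v1, rfl⟩ := M.sq.exists_wd hy
  rw [← wd_append, M.img_wd (inS_append.2 ⟨u1, v1⟩) hp, M.img_wd u1 hp, M.img_wd v1 (M.run_lt u1 hp), run_append]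

theorem Mod.img_one (M : Mod a SA n act) {p : ℕ} (hp : p < n) : img a SA act 1 p = p :=
  M.img_wd (w := []) rfl hp

theorem Mod.img_inv (M : Mod a SA n act) {x : X} (hx : x ∈ gp a SA) {p : ℕ} (hp : p < n) :
    img a SA act x⁻¹ (img a SA act x p) = p := by
  rw [← M.img_mul hx (inv_mem hx) hp, mul_inv_cancel, M.img_one hp]

theorem Mod.img_inj (M : Mod a SA n act) {x : X} (hx : x ∈ gp a SA) {p q : ℕ} (hp : p < n) (hq : q < n)
    (e : img a SA act x p = img a SA act x q) : p = q := by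
  rw [← M.img_inv hx hp, e, M.img_inv hx hq]

/-- the stabilizer of a point -/
def Mod.st (M : Mod a SA n act) {b : ℕ} (hb : b < n) : Subgroup X where
  carrier := {x | x ∈ gp a SA ∧ img a SA act x b = b}
  one_mem' := ⟨one_mem _, M.img_one hb⟩
  mul_mem' := fun {x y} hx hy => ⟨mul_mem hx.1 hy.1, by rw [M.img_mul hx.1 hy.1 hb, hx.2, hy.2]⟩
  inv_mem' := fun {x} hx => ⟨inv_mem hx.1, by have := M.img_inv hx.1 hb; rwa [hx.2] at this⟩

theorem Mod.mem_st (M : Mod a SA n act) {b : ℕ} (hb : b < n) {x : X} :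
    x ∈ M.st hb ↔ x ∈ gp a SA ∧ img a SA act x b = b := Iff.rfl

theorem Mod.img_eq_iff (M : Mod a SA n act) {b : ℕ} (hb : b < n) {x y : X} (hx : x ∈ gp a SA) (hy : y ∈ gp a SA) :
    img a SA act x b = img a SA act y b ↔ x * y⁻¹ ∈ M.st hb := by
  rw [M.mem_st, M.img_mul hx (inv_mem hy) hb]
  refine ⟨fun e => ⟨mul_mem hx (inv_mem hy), by rw [e, M.img_inv hy hb]⟩, fun e => ?_⟩
  have := M.img_inv (inv_mem hy) (M.img_lt x hb)
  rw [e.2, inv_inv] at this
  exact this.symm

theorem card_eq_range {α : Type*} {D K : Subgroup X} (f : X → α)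
    (hf : ∀ x ∈ D, ∀ y ∈ D, f x = f y ↔ x * y⁻¹ ∈ K) :
    Nat.card D = (f '' D).ncard * Nat.card (D ⊓ K : Subgroup X) := by
  let F : D ⧸ K.subgroupOf D → f '' D := fun c => Quotient.liftOn' c
    (fun x => ⟨f (x⁻¹ : D), _, (x⁻¹).2, rfl⟩) (fun x y e => Subtype.ext ((hf _ (x⁻¹).2 _ (y⁻¹).2).2 (by
      simpa [mem_subgroupOf] using QuotientGroup.leftRel_apply.1 e)))
  have hF : Function.Bijective F := by
    constructor
    · intro c d
      induction c using Quotient.inductionOn' with | _ x => ?_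
      induction d using Quotient.inductionOn' with | _ y => ?_
      intro e
      have := (hf _ (x⁻¹).2 _ (y⁻¹).2).1 (congrArg Subtype.val e)
      exact Quotient.sound' (QuotientGroup.leftRel_apply.2 (by simpa [mem_subgroupOf] using this))
    · rintro ⟨_, x, hx, rfl⟩
      exact ⟨((⟨x, hx⟩ : D)⁻¹ : D), Subtype.ext (by simp [F])⟩
  rw [← Nat.card_coe_set_eq, ← Nat.card_eq_of_bijective F hF, card_eq_card_quotient_mul_card_subgroup (K.subgroupOf D),
    ← inf_subgroupOf_left, Nat.card_congr (subgroupOfEquivOfLe inf_le_left).toEquiv]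

/-- orbit-stabilizer -/
theorem Mod.card_eq (M : Mod a SA n act) {b : ℕ} (hb : b < n) {D : Subgroup X} (hD : D ≤ gp a SA) :
    Nat.card D = ((fun x => img a SA act x b) '' D).ncard * Nat.card (D ⊓ M.st hb : Subgroup X) :=
  card_eq_range _ fun _ hx _ hy => M.img_eq_iff hb (hD hx) (hD hy)

theorem ncard_le_length {α : Type*} {s : Set α} {L : List α} (h : ∀ x ∈ s, x ∈ L) : s.ncard ≤ L.length := by
  classical
  calc s.ncard ≤ (L.toFinset : Set α).ncard := Set.ncard_le_ncard (fun x hx => by simpa using h x hx) (Set.toFinite _)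
    _ = L.toFinset.card := Set.ncard_coe_finset _
    _ ≤ L.length := L.toFinset_card_le

theorem le_ncard {α : Type*} {s : Set α} (hs : s.Finite) {N : ℕ} (F : ℕ → α) (h : ∀ i < N, F i ∈ s)
    (hi : ∀ i < N, ∀ j < N, F i = F j → i = j) : N ≤ s.ncard := by
  have := Set.ncard_le_ncard_of_injOn (s := Set.Iio N) F (fun i hi => h i hi) (fun i a j b => hi i a j b) hs
  rwa [Set.ncard_eq_toFinset_card', Set.toFinset_Iio, Nat.card_Iio] at this

theorem Mod.card_le (M : Mod a SA n act) {b : ℕ} (hb : b < n) {D : Subgroup X} (hD : D ≤ gp a SA) {L : List ℕ}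
    (hL : ∀ x ∈ D, img a SA act x b ∈ L) : Nat.card D ≤ L.length * Nat.card (D ⊓ M.st hb : Subgroup X) := by
  rw [M.card_eq hb hD]
  exact Nat.mul_le_mul_right _ (ncard_le_length (by rintro _ ⟨x, hx, rfl⟩; exact hL x hx))

theorem Mod.le_card (M : Mod a SA n act) {b : ℕ} (hb : b < n) {D : Subgroup X} (hD : D ≤ gp a SA) {N : ℕ}
    {W : ℕ → List ℕ} {iv : ℕ → ℕ} (hW : ∀ i < N, inS SA (W i) = true ∧ wd a (W i) ∈ D ∧ iv (run act (W i) b) = i) :
    N * Nat.card (D ⊓ M.st hb : Subgroup X) ≤ Nat.card D := by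
  rw [M.card_eq hb hD]
  refine Nat.mul_le_mul_right _ (le_ncard ((Set.finite_Iio n).subset ?_) (fun i => run act (W i) b)
    (fun i hi => ⟨_, (hW i hi).2.1, M.img_wd (hW i hi).1 hb⟩) fun i hi j hj e => ?_)
  · rintro _ ⟨x, -, rfl⟩; exact M.img_lt x hb
  · rw [← (hW i hi).2.2, ← (hW j hj).2.2]; exact congrArg iv e

/-- commuting elements preserve fixed points -/
theorem Mod.img_fix (M : Mod a SA n act) {x y : X} (hx : x ∈ gp a SA) (hy : y ∈ gp a SA) (h : Commute x y) {p : ℕ}
    (hp : p < n) (e : img a SA act y p = p) : img a SA act y (img a SA act x p) = img a SA act x p := by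
  rw [← M.img_mul hx hy hp, h.eq, M.img_mul hy hx hp, e]

/-! ### keys and enumerations -/

/-- the images of the base points, as one number -/
noncomputable def key (act : ℕ → ℕ → ℕ) (B w : List ℕ) : ℕ :=
  List.rec 0 (fun b _ ih => Nat.add (Nat.shiftLeft ih 16) (run act w b)) B

theorem Mod.key_eq (M : Mod a SA n act) (hB : ∀ b ∈ B, b < n) {u v : List ℕ} (hu : inS SA u = true)
    (hv : inS SA v = true) (e : wd a u = wd a v) : key act B u = key act B v := by
  induction B with
  | nil => rfl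
  | cons b t ih =>
    show Nat.add (Nat.shiftLeft (key act t u) 16) (run act u b) = Nat.add (Nat.shiftLeft (key act t v) 16) (run act v b)
    rw [ih fun c hc => hB c (List.mem_cons_of_mem _ hc), M.eq hu hv e (hB b List.mem_cons_self)]

theorem inj_of_lt {N : ℕ} {k : ℕ → ℕ} (h : ∀ i, i + 1 < N → k i < k (i + 1)) :
    ∀ i < N, ∀ j < N, k i = k j → i = j := by
  have m : ∀ j < N, ∀ i < j, k i < k j := by
    intro j
    induction j with
    | zero => intro _ i hi; omega
    | succ j ih =>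
      intro hj i hi
      rcases Nat.lt_succ_iff_lt_or_eq.1 hi with e | e
      exacts [(ih (by omega) i e).trans (h j hj), e ▸ h j hj]
  intro i hi j hj e
  rcases lt_trichotomy i j with l | l | l
  exacts [absurd e (m j hj i l).ne, l, absurd e.symm (m i hi j l).ne]

/-- the words lie in the mask and have the increasing keys `kt` -/
noncomputable def enChk (act : ℕ → ℕ → ℕ) (B : List ℕ) (S : ℕ) (W : ℕ → List ℕ) (kt : ℕ → ℕ) (i : ℕ) : Bool :=
  band (inS S (W i)) (frc (kt i) fun k => band (Nat.beq (key act B (W i)) k) (blt k (kt (Nat.succ i))))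

theorem Mod.wd_inj (M : Mod a SA n act) (hB : ∀ b ∈ B, b < n) {S N : ℕ} (hS : sub S SA = true)
    {W : ℕ → List ℕ} {kt : ℕ → ℕ} (h : ∀ i < N, enChk act B S W kt i = true) :
    (∀ i < N, inS S (W i) = true) ∧ ∀ i < N, ∀ j < N, wd a (W i) = wd a (W j) → i = j := by
  have k : ∀ i < N, inS S (W i) = true ∧ key act B (W i) = kt i ∧ kt i < kt (i + 1) := fun i hi => by
    have := h i hi
    unfold enChk at this
    rwa [band_iff, frc_eq, band_iff, beq_iff, blt_iff] at this
  refine ⟨fun i hi => (k i hi).1, fun i hi j hj e => inj_of_lt (k := kt) (fun i hi => (k i (by omega)).2.2) i hi j hj ?_⟩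
  rw [← (k i hi).2.1, ← (k j hj).2.1]
  exact M.key_eq hB (inS_sub hS (k i hi).1) (inS_sub hS (k j hj).1) e

theorem exists_of_ncard {α : Type*} {s : Set α} (hs : s.Finite) {N : ℕ} (hN : s.ncard ≤ N) (F : ℕ → α)
    (h : ∀ i < N, F i ∈ s) (hi : ∀ i < N, ∀ j < N, F i = F j → i = j) {x : α} (hx : x ∈ s) : ∃ i < N, F i = x := by
  have e : F '' Set.Iio N = s := Set.eq_of_subset_of_ncard_le (by rintro _ ⟨i, a, rfl⟩; exact h i a)
    (hN.trans (le_ncard ((Set.finite_Iio N).image F) F (fun i a => ⟨i, a, rfl⟩) hi)) hs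
  rw [← e] at hx
  exact hx

/-- lower bound for the order of a subgroup -/
theorem Mod.le_card_en (M : Mod a SA n act) (hB : ∀ b ∈ B, b < n) {S N : ℕ} (hS : sub S SA = true)
    {W : ℕ → List ℕ} {kt : ℕ → ℕ} (h : ∀ i < N, enChk act B S W kt i = true) {K : Subgroup X} [Finite K]
    (hK : ∀ g, tb S g = true → a g ∈ K) : N ≤ Nat.card K :=
  le_ncard (Set.toFinite (K : Set X)) (fun i => wd a (W i)) (fun i hi => wd_mem hK ((M.wd_inj hB hS h).1 i hi))
    (M.wd_inj hB hS h).2

/-- enumeration of a subgroup of known order -/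
theorem Mod.enum (M : Mod a SA n act) (hB : ∀ b ∈ B, b < n) {S N : ℕ} (hS : sub S SA = true)
    {W : ℕ → List ℕ} {kt : ℕ → ℕ} (h : ∀ i < N, enChk act B S W kt i = true) {K : Subgroup X} [Finite K]
    (hK : ∀ g, tb S g = true → a g ∈ K) (hN : Nat.card K ≤ N) {x : X} (hx : x ∈ K) :
    ∃ i < N, inS S (W i) = true ∧ wd a (W i) = x := by
  obtain ⟨i, hi, e⟩ := exists_of_ncard (Set.toFinite (K : Set X)) hN (fun i => wd a (W i))
    (fun i hi => wd_mem hK ((M.wd_inj hB hS h).1 i hi)) (M.wd_inj hB hS h).2 hx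
  exact ⟨i, hi, (M.wd_inj hB hS h).1 i hi, e⟩

/-- the list of words is closed under multiplication by the letters -/
noncomputable def clChk (act : ℕ → ℕ → ℕ) (B : List ℕ) (S N : ℕ) (W : ℕ → List ℕ) (nx : ℕ → ℕ → ℕ) (i : ℕ) : Bool :=
  band (inS S (W i)) (allLt 16 fun g => bor (TC.bne (Nat.land (Nat.shiftRight S g) 1) 1)
    (frc (nx g i) fun j => band (blt j N) (eqB act B (g :: W i) (W j))))

theorem Rel.enum {S N : ℕ} (h : Rel a act S B) (T : Tb S n act) (sq : Sq a S) (hB : ∀ b ∈ B, b < n) (hS : S < 65536)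
    {W : ℕ → List ℕ} {nx : ℕ → ℕ → ℕ} {i0 : ℕ} (h0 : i0 < N) (h1 : W i0 = [])
    (hc : ∀ i < N, clChk act B S N W nx i = true) {x : X} (hx : x ∈ gp a S) :
    ∃ i < N, inS S (W i) = true ∧ wd a (W i) = x := by
  obtain ⟨w, hw, rfl⟩ := sq.exists_wd hx
  clear hx
  have k := fun i hi => (band_iff.1 (hc i hi)).1
  induction w with
  | nil => exact ⟨i0, h0, k _ h0, by rw [h1]⟩
  | cons g w ih =>
    rw [inS_cons] at hw
    obtain ⟨i, hi, -, e⟩ := ih hw.2
    have := or_tb (allLt_spec (band_iff.1 (hc i hi)).2 g (lt16 hS hw.1)) hw.1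
    rw [frc_eq, band_iff, blt_iff] at this
    refine ⟨_, this.1, k _ this.1, ?_⟩
    rw [← h.eq T sq hB (inS_cons.2 ⟨hw.1, k i hi⟩) (k _ this.1) this.2, wd_cons, wd_cons, e]

theorem card_le_of_enum {K : Subgroup X} {N : ℕ} {F : ℕ → X} (h : ∀ x ∈ K, ∃ i < N, F i = x) :
    Finite K ∧ Nat.card K ≤ N := by
  have s : (K : Set X) ⊆ F '' Set.Iio N := fun x hx => h x hx
  refine ⟨((Set.finite_Iio N).image F).subset s, ?_⟩
  calc Nat.card K = (K : Set X).ncard := rfl
    _ ≤ (F '' Set.Iio N).ncard := Set.ncard_le_ncard s ((Set.finite_Iio N).image F)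
    _ ≤ (Set.Iio N).ncard := Set.ncard_image_le (Set.finite_Iio N)
    _ = N := by rw [Set.ncard_eq_toFinset_card', Set.toFinset_Iio, Nat.card_Iio]

/-- lower bound for the size of a conjugacy class -/
theorem Mod.class_ge [Finite X] (M : Mod a SA n act) (hB : ∀ b ∈ B, b < n) {N : ℕ} {z : List ℕ}
    {W : ℕ → List ℕ} {kt : ℕ → ℕ} (hW : ∀ i < N, inS SA (W i) = true)
    (h : ∀ i < N, enChk act B SA (fun i => (W i).reverse ++ z ++ W i) kt i = true) :
    N * Nat.card (centralizer ({wd a z} : Set X)) ≤ Nat.card X := by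
  have e := card_eq_range (D := ⊤) (K := centralizer ({wd a z} : Set X)) (fun x => x⁻¹ * wd a z * x)
    (fun x _ y _ => by
      rw [mem_centralizer_singleton_iff]
      constructor
      · intro e
        calc x * y⁻¹ * wd a z = x * (y⁻¹ * wd a z * y) * y⁻¹ := by group
          _ = _ := by rw [← e]; group
      · intro e
        calc x⁻¹ * wd a z * x = x⁻¹ * (wd a z * (x * y⁻¹)) * y := by group
          _ = _ := by rw [← e]; group)
  rw [top_inf_eq, card_top] at e
  rw [e]
  refine Nat.mul_le_mul_right _ (le_ncard (Set.toFinite _) (fun i => wd a ((W i).reverse ++ z ++ W i))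
    (fun i hi => ⟨wd a (W i), mem_top _, ?_⟩) (M.wd_inj hB (sub_refl _) h).2)
  simp only [wd_append, M.sq.rev (hW i hi)]

/-! ### construction of models -/

theorem Mod.of_rel (T : Tb SA n act) (sq : Sq a SA) (R : X → ℕ → ℕ → Prop) (h1 : ∀ p < n, R 1 p p)
    (h2 : ∀ x g p q, tb SA g = true → p < n → R x (act g p) q → R (a g * x) p q)
    (h3 : ∀ p < n, ∀ q < n, R 1 p q → q = p) : Mod a SA n act := by
  refine ⟨T, sq, fun w hw e p hp => h3 p hp _ (T.run_lt hw hp) ?_⟩
  rw [← e]
  clear e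
  induction w generalizing p with
  | nil => exact h1 p hp
  | cons g w ih =>
    rw [inS_cons] at hw
    rw [wd_cons, run_cons]
    exact h2 _ _ _ _ hw.1 hp (ih hw.2 _ (T.lt g hw.1 p hp))

theorem Mod.comap {Y : Type*} [Group Y] {b : ℕ → Y} (M : Mod b SA n act) (sq : Sq a SA) (φ : X →* Y)
    (h : ∀ g, tb SA g = true → φ (a g) = b g) : Mod a SA n act := by
  refine ⟨M.toTb, sq, fun w hw e => M.cmp w hw ?_⟩
  have : ∀ w, inS SA w = true → φ (wd a w) = wd b w := fun w hw => by
    induction w with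
    | nil => simp
    | cons g w ih => rw [inS_cons] at hw; simp [h g hw.1, ih hw.2]
  rw [← this w hw, e, map_one]

open Classical in
/-- the permutations of a table -/
noncomputable def Tb.perm (T : Tb SA n act) (g : ℕ) : Equiv.Perm (Fin n) :=
  if h : tb SA g = true then
    Function.Involutive.toPerm (fun p => ⟨act g p, T.lt g h p p.2⟩) fun p => Fin.ext (T.inv g h p p.2) else 1

theorem Tb.perm_wd (T : Tb SA n act) {w : List ℕ} (hw : inS SA w = true) (p : Fin n) :
    (wd T.perm w p : ℕ) = run act w.reverse p := by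
  induction w with
  | nil => rfl
  | cons g w ih =>
    rw [inS_cons] at hw
    rw [wd_cons, Equiv.Perm.mul_apply, List.reverse_cons, run_append, ← ih hw.2, Tb.perm, dif_pos hw.1]
    exact (run_cons act g [] _).symm

theorem Tb.perm_eq_one (T : Tb SA n act) {w : List ℕ} (hw : inS SA w = true) :
    wd T.perm w = 1 ↔ ∀ p < n, run act w p = p := by
  constructor
  · intro e p hp
    have := T.perm_wd hw ⟨p, hp⟩
    rw [e] at this
    have k := T.run_rev' hw hp
    rwa [← show p = run act w.reverse p from this] at k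
  · intro e
    ext p
    rw [T.perm_wd hw]
    have k := T.run_rev hw p.2
    rwa [e p p.2] at k

theorem Tb.mod (T : Tb SA n act) : Mod T.perm SA n act :=
  ⟨T, fun g hg => by
    have := (T.perm_eq_one (w := [g, g]) (inS_cons.2 ⟨hg, inS_cons.2 ⟨hg, rfl⟩⟩)).2 fun p hp => by
      simpa using T.inv g hg p hp
    simpa using this, fun w hw => (T.perm_eq_one hw).1⟩

/-- a homomorphism defined by a `Rel` statement -/
theorem exists_hom {Y : Type*} [Group Y] {b : ℕ → Y} {S : ℕ} (sqa : Sq a S) (sqb : Sq b S)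
    (h : ∀ w, inS S w = true → wd b w = 1 → wd a w = 1) :
    ∃ φ : gp b S →* X, ∀ w (hw : inS S w = true), φ ⟨wd b w, wd_mem_gp hw⟩ = wd a w := by
  have k : ∀ u v, inS S u = true → inS S v = true → wd b u = wd b v → wd a u = wd a v := fun u v hu hv e => by
    have := h (u ++ v.reverse) (inS_append.2 ⟨hu, inS_reverse.2 hv⟩) (by rw [wd_append, sqb.rev hv, e, mul_inv_cancel])
    rwa [wd_append, sqa.rev hv, mul_inv_eq_one] at this
  choose W W1 W2 using fun x : gp b S => sqb.exists_wd x.2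
  refine ⟨MonoidHom.mk' (fun x => wd a (W x)) fun x y => ?_, fun w hw => k _ _ (W1 _) hw (W2 _)⟩
  rw [← wd_append]
  exact k _ _ (W1 _) (inS_append.2 ⟨W1 _, W1 _⟩) (by rw [wd_append, W2, W2, W2]; rfl)

end CA.PM

theorem CA.PM.realizeEqnsV : True := by
  have := @CA.PM.Tb.perm.eq_1
  have := @CA.PM.Tb.perm.eq_def
  have := @CA.PM.Tb.perm.congr_simp
  have := @CA.PM.valS.eq_1
  have := @CA.PM.valS.eq_def
  have := @CA.PM.valS.congr_simp
  have := @CA.PM.key.eq_1
  have := @CA.PM.key.eq_def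
  have := @CA.PM.key.congr_simp
  have := @CA.PM.clChk.eq_1
  have := @CA.PM.clChk.eq_def
  have := @CA.PM.clChk.congr_simp
  have := @CA.PM.Mod.st.eq_1.{0}
  have := @CA.PM.Mod.st.eq_def.{0}
  have := @CA.PM.Mod.st.congr_simp.{0}
  have := @CA.PM.nth.eq_1
  have := @CA.PM.nth.eq_def
  have := @CA.PM.nth.congr_simp
  have := @CA.PM.img.eq_1.{0}
  have := @CA.PM.img.eq_def.{0}
  have := @CA.PM.img.congr_simp.{0}
  have := @CA.PM.triv.eq_1
  have := @CA.PM.triv.eq_def
  have := @CA.PM.triv.congr_simp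
  have := @CA.PM.enChk.eq_1
  have := @CA.PM.enChk.eq_def
  have := @CA.PM.enChk.congr_simp
  have := @CA.PM.rot.eq_1
  have := @CA.PM.rot.eq_def
  have := @CA.PM.rot.congr_simp
  have := @CA.PM.sepChk.eq_1
  have := @CA.PM.sepChk.eq_def
  have := @CA.PM.sepChk.congr_simp
  have := @CA.PM.invChk.eq_1
  have := @CA.PM.invChk.eq_def
  have := @CA.PM.invChk.congr_simp
  trivial
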