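/-
Based models, equations between products of words, transport along partial isomorphisms.
-/
import Cfsg.Agent.PM.V
import Cfsg.Agent.Typ.A9
import Cfsg.Agent.Loc.Abs2

set_option autoImplicit false

namespace CA.PM

open CA.TC CA.Fi CA.Typ Subgroup

variable {X : Type*} [Group X]

/-- reversal -/
noncomputable def rv (l : List ℕ) : List ℕ := List.rec (fun acc => acc) (fun a _ ih acc => ih (a :: acc)) l []

theorem rv_eq (l : List ℕ) : rv l = l.reverse := by
  have : ∀ acc, (List.rec (fun acc => acc) (fun a _ ih acc => ih (a :: acc)) l : List ℕ → List ℕ) acc =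
      l.reverse ++ acc := by
    induction l with
    | nil => intro acc; rfl
    | cons a t ih => intro acc; exact (ih _).trans (by simp)
  exact (this []).trans (List.append_nil _)

/-- product of several words -/
def wds (a : ℕ → X) (l : List (List ℕ)) : X := (l.map (wd a)).prod

@[simp] theorem wds_nil (a : ℕ → X) : wds a [] = 1 := rfl
@[simp] theorem wds_cons (a : ℕ → X) (w : List ℕ) (l : List (List ℕ)) : wds a (w :: l) = wd a w * wds a l := by
  simp [wds]

/-- action of several words -/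
noncomputable def runs (act : ℕ → ℕ → ℕ) (l : List (List ℕ)) : ℕ → ℕ :=
  List.rec (fun p => p) (fun w _ ih p => frc (run act w p) ih) l

theorem runs_eq (act : ℕ → ℕ → ℕ) (l : List (List ℕ)) (p : ℕ) : runs act l p = run act l.flatten p := by
  induction l generalizing p with
  | nil => rfl
  | cons w t ih => rw [List.flatten_cons, run_append, ← ih]; exact frc_eq _ _

theorem wds_eq (a : ℕ → X) (l : List (List ℕ)) : wds a l = wd a l.flatten := by
  induction l with
  | nil => rfl
  | cons w t ih => rw [List.flatten_cons, wd_append, wds_cons, ih]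

theorem inS_flatten {S : ℕ} {l : List (List ℕ)} (h : allL l (inS S) = true) : inS S l.flatten = true := by
  rw [inS_iff]
  intro g hg
  obtain ⟨w, hw, e⟩ := List.mem_flatten.1 hg
  exact inS_iff.1 (allL_spec h w hw) g e

/-- equation between products of words -/
noncomputable def eqW (act : ℕ → ℕ → ℕ) (S : ℕ) (B : List ℕ) (u v : List (List ℕ)) : Bool :=
  band (allL B fun b => Nat.beq (runs act u b) (runs act v b)) (band (allL u (inS S)) (allL v (inS S)))

/-- inequation between products of words -/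
noncomputable def neW (act : ℕ → ℕ → ℕ) (S : ℕ) (B : List ℕ) (u v : List (List ℕ)) : Bool :=
  band (anyL B fun b => TC.bne (runs act u b) (runs act v b)) (band (allL u (inS S)) (allL v (inS S)))

/-- letters satisfying all the relations of a table -/
structure RM (a : ℕ → X) (S n : ℕ) (act : ℕ → ℕ → ℕ) (B : List ℕ) : Prop where
  tbl : Tb S n act
  sq : Sq a S
  rel : Rel a act S B
  lt : ∀ b ∈ B, b < n

/-- a based model -/
structure BM (a : ℕ → X) (S n : ℕ) (act : ℕ → ℕ → ℕ) (B : List ℕ) : Prop extends Mod a S n act where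
  rel : Rel a act S B
  ltB : ∀ b ∈ B, b < n

variable {a : ℕ → X} {S n : ℕ} {act : ℕ → ℕ → ℕ} {B : List ℕ}

theorem BM.rm (M : BM a S n act B) : RM a S n act B := ⟨M.toTb, M.sq, M.rel, M.ltB⟩

theorem Tb.mono {T : ℕ} (h : Tb S n act) (e : sub T S = true) : Tb T n act :=
  ⟨fun g hg => h.lt g (tb_sub e hg), fun g hg => h.inv g (tb_sub e hg)⟩

theorem RM.mono {T : ℕ} (M : RM a S n act B) (e : sub T S = true) : RM a T n act B :=
  ⟨M.tbl.mono e, M.sq.mono e, M.rel.mono e, M.lt⟩

theorem RM.eq (M : RM a S n act B) {u v : List (List ℕ)} (h : eqW act S B u v = true) : wds a u = wds a v := by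
  unfold eqW at h
  rw [band_iff, band_iff] at h
  rw [wds_eq, wds_eq]
  refine M.rel.eq M.tbl M.sq M.lt (inS_flatten h.2.1) (inS_flatten h.2.2) (eqB_iff.2 fun b hb => ?_)
  rw [← runs_eq, ← runs_eq]
  exact beq_iff.1 (allL_spec h.1 b hb)

theorem Mod.ne (M : Mod a S n act) (hB : ∀ b ∈ B, b < n) {u v : List (List ℕ)} (h : neW act S B u v = true) :
    wds a u ≠ wds a v := fun e => by
  unfold neW at h
  rw [band_iff, band_iff] at h
  obtain ⟨b, hb, k⟩ := anyL_spec h.1
  rw [wds_eq, wds_eq] at e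
  rw [bne_iff, runs_eq, runs_eq] at k
  exact k (M.eq (inS_flatten h.2.1) (inS_flatten h.2.2) e (hB b hb))

theorem BM.ne (M : BM a S n act B) {u v : List (List ℕ)} (h : neW act S B u v = true) : wds a u ≠ wds a v :=
  M.toMod.ne M.ltB h

theorem RM.comm (M : RM a S n act B) {u v : List ℕ} (h : eqW act S B [u, v] [v, u] = true) :
    Commute (wd a u) (wd a v) := by simpa [commute_iff_eq] using M.eq h

theorem BM.ncomm (M : BM a S n act B) {u v : List ℕ} (h : neW act S B [u, v] [v, u] = true) :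
    ¬ Commute (wd a u) (wd a v) := fun e => M.ne h (by simpa using e.eq)

theorem RM.one (M : RM a S n act B) {u : List ℕ} (h : eqW act S B [u] [] = true) : wd a u = 1 := by
  simpa using M.eq h

theorem RM.eq1 (M : RM a S n act B) {u v : List ℕ} (h : eqW act S B [u] [v] = true) : wd a u = wd a v := by
  simpa using M.eq h

theorem BM.ne1 (M : BM a S n act B) {u v : List ℕ} (h : neW act S B [u] [v] = true) : wd a u ≠ wd a v := by
  simpa using M.ne h

theorem eqW_inS {u v : List (List ℕ)} (h : eqW act S B u v = true) : ∀ w ∈ u, inS S w = true :=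
  allL_spec (band_iff.1 (band_iff.1 h).2).1

theorem eqW_inS' {u v : List (List ℕ)} (h : eqW act S B u v = true) : ∀ w ∈ v, inS S w = true :=
  allL_spec (band_iff.1 (band_iff.1 h).2).2

/-- `u * z = y * u`, so `u * z * u⁻¹ = y` -/
theorem RM.conj (M : RM a S n act B) {u z y : List ℕ} (h : eqW act S B [u, z] [y, u] = true) :
    wd a u * wd a z * (wd a u)⁻¹ = wd a y := by
  have := M.eq h
  simp only [wds_cons, wds_nil, mul_one] at this
  rw [this, mul_inv_cancel_right]

theorem wd_one (a : ℕ → X) (g : ℕ) : wd a [g] = a g := by simp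

/-- a statement for all letters of a mask -/
noncomputable def allS (S : ℕ) (f : ℕ → Bool) : Bool :=
  allLt 16 fun g => bor (TC.bne (Nat.land (Nat.shiftRight S g) 1) 1) (f g)

theorem allS_spec {f : ℕ → Bool} (hS : S < 65536) (h : allS S f = true) {g : ℕ} (hg : tb S g = true) : f g = true :=
  or_tb (allLt_spec h g (lt16 hS hg)) hg

/-- some letter of a mask -/
noncomputable def anyS (S : ℕ) (f : ℕ → Bool) : Bool := anyLt 16 fun g => band (tb S g) (f g)

theorem anyS_spec {f : ℕ → Bool} (h : anyS S f = true) : ∃ g, tb S g = true ∧ f g = true := by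
  obtain ⟨g, -, e⟩ := anyLt_spec h
  exact ⟨g, band_iff.1 e⟩

theorem comm_gp {x : X} (h : ∀ g, tb S g = true → Commute (a g) x) {y : X} (hy : y ∈ gp a S) : Commute y x :=
  mem_cent_iff.1 (gp_le (K := centralizer {x}) (fun g hg => mem_cent_iff.2 (h g hg)) hy)

theorem wd_pow (a : ℕ → X) (w : List ℕ) (k : ℕ) : wd a (List.replicate k w).flatten = wd a w ^ k := by
  induction k with
  | zero => simp
  | succ k ih => rw [List.replicate_succ, List.flatten_cons, wd_append, ih, pow_succ']

theorem wds_rep (a : ℕ → X) (w : List ℕ) (k : ℕ) : wds a (List.replicate k w) = wd a w ^ k := by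
  rw [wds_eq, wd_pow]

theorem RM.pow (M : RM a S n act B) {u : List ℕ} {k : ℕ} (h : eqW act S B (List.replicate k u) [] = true) :
    wd a u ^ k = 1 := by
  rw [← wds_rep]; exact M.eq h

/-! ### transport -/

section
variable {Y : Type*} [Group Y] {Θ : X → Y} {K : Subgroup X} {K' : Subgroup Y} {b : ℕ → Y}

theorem PH_wd (h : PH Θ K K') (hK : ∀ g, tb S g = true → a g ∈ K) (hb : ∀ g, tb S g = true → b g = Θ (a g))
    {w : List ℕ} (hw : inS S w = true) : Θ (wd a w) = wd b w := by
  induction w with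
  | nil => exact h.one
  | cons g w ih =>
    rw [inS_cons] at hw
    rw [wd_cons, wd_cons, h.mul _ (hK g hw.1) _ (wd_mem hK hw.2), ih hw.2, hb g hw.1]

theorem RM.tr (M : RM a S n act B) (h : PH Θ K K') (hK : ∀ g, tb S g = true → a g ∈ K)
    (hb : ∀ g, tb S g = true → b g = Θ (a g)) : RM b S n act B :=
  ⟨M.tbl, fun g hg => by rw [hb g hg, ← h.mul _ (hK g hg) _ (hK g hg), M.sq g hg, h.one],
    fun w hw hf => by rw [← PH_wd h hK hb hw, M.rel w hw hf, h.one], M.lt⟩

theorem conj_tr {D : Subgroup X}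
    (h : ∀ g, tb S g = true → ∀ d ∈ D, a g * d * (a g)⁻¹ ∈ D ∧ Θ (a g * d * (a g)⁻¹) = b g * Θ d * (b g)⁻¹)
    {w : List ℕ} (hw : inS S w = true) {d : X} (hd : d ∈ D) :
    wd a w * d * (wd a w)⁻¹ ∈ D ∧ Θ (wd a w * d * (wd a w)⁻¹) = wd b w * Θ d * (wd b w)⁻¹ := by
  induction w with
  | nil => simpa using hd
  | cons g w ih =>
    rw [inS_cons] at hw
    obtain ⟨h1, h2⟩ := ih hw.2
    obtain ⟨h3, h4⟩ := h g hw.1 _ h1
    rw [h2] at h4
    rw [wd_cons, wd_cons]
    exact ⟨by convert h3 using 1; group, by convert h4 using 1 <;> [congr 1; skip] <;> group⟩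

end

theorem conj_mem_gp [Finite X] {g : X} (h : ∀ q, tb S q = true → g * a q * g⁻¹ ∈ gp a S) :
    g ∈ normalizer (gp a S : Set X) :=
  CA.Loc.mem_norm_closure (by rintro _ ⟨q, hq, rfl⟩; exact h q hq)

/-- extraspecial groups from generators -/
theorem es_of_gens {z : X} (hz : z ∈ gp a S) (h1 : z ≠ 1) (h2 : z * z = 1)
    (h3 : ∀ g, tb S g = true → Commute (a g) z)
    (h4 : ∀ g, tb S g = true → ∀ k, tb S k = true → Commute (a g) (a k) ∨ a g * a k = a k * a g * z)
    (h5 : ∀ x ∈ gp a S, (∀ g, tb S g = true → Commute (a g) x) → x = 1 ∨ x = z)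
    (h6 : ∃ x ∈ gp a S, x ≠ 1 ∧ x ≠ z) : ES (gp a S) z := by
  have zc : ∀ x ∈ gp a S, Commute x z := fun x hx => comm_gp h3 hx
  have key : ∀ x, Commute x z → (∀ k, tb S k = true → x * a k = a k * x ∨ x * a k = a k * x * z) →
      ∀ y ∈ gp a S, x * y = y * x ∨ x * y = y * x * z := fun x xz hx y hy => by
    induction hy using closure_induction with
    | mem y hy => obtain ⟨k, hk, rfl⟩ := hy; exact hx k hk
    | one => simp
    | mul u v hu hv h1 h2' =>
      have e : ∀ t, z * (v * t) = v * (z * t) := fun t => by rw [← mul_assoc, ← (zc v hv).eq, mul_assoc]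
      have e2 : ∀ t, z * (x * t) = x * (z * t) := fun t => by rw [← mul_assoc, ← xz.eq, mul_assoc]
      rw [← mul_assoc]
      rcases h1 with h1 | h1 <;> rw [h1]
      · rw [mul_assoc]; rcases h2' with h2' | h2' <;> rw [h2'] <;> simp [mul_assoc]
      · rw [mul_assoc, ← (zc v hv).eq, ← mul_assoc, mul_assoc u]
        rcases h2' with h2' | h2' <;> rw [h2'] <;> simp [mul_assoc, h2]
    | inv u hu h1 =>
      rcases h1 with h1 | h1
      · left; exact (Commute.inv_right h1).eq
      · right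
        calc x * u⁻¹ = u⁻¹ * (u * x * z) * z * u⁻¹ := by rw [mul_assoc (u⁻¹), mul_assoc _ z z, h2]; group
          _ = u⁻¹ * x * (u * z * u⁻¹) := by rw [← h1]; group
          _ = _ := by rw [(zc u hu).eq, mul_inv_cancel_right]
  refine ⟨hz, h1, h2, fun x hx => (zc x hx).symm, fun x hx hc => h5 x hx fun g hg => (hc _ (mem_gp hg)).symm,
    fun x hx y hy => key x (zc x hx) (fun k hk => ?_) y hy, h6⟩
  rcases key (a k) (h3 k hk) (fun g hg => h4 k hk g hg) x hx with e | e
  · exact Or.inl e.symm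
  · right; rw [e, mul_assoc, h2, mul_one]

theorem TH_mk [Finite X] {Q : Subgroup X} {z g : X} (L : LE Q z) {c N : ℕ} (hc : Nat.card Q = c) (h8 : 8 < c)
    (hN : Nat.card (centralizer ({z} : Set X)) = c * N) (h1 : g * z * g⁻¹ ∈ Q) (h2 : g * z * g⁻¹ ≠ z) :
    TH Q (Q.map (MulAut.conj g).toMonoidHom) z (g * z * g⁻¹) c N :=
  ⟨L.pair h1 (L.mem_conj (hc ▸ h8) h1) h2.symm, hc, hN⟩

/-- lower bound for the size of a conjugacy class in a subgroup -/
theorem Mod.class_ge' [Finite X] (M : Mod a S n act) (hB : ∀ b ∈ B, b < n) {N T : ℕ} (hT : sub T S = true)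
    {z : List ℕ} {W : ℕ → List ℕ} {kt : ℕ → ℕ} {D : Subgroup X} (hD : ∀ g, tb T g = true → a g ∈ D)
    (hW : ∀ i < N, inS T (W i) = true)
    (h : ∀ i < N, enChk act B S (fun i => W i ++ (z ++ rv (W i))) kt i = true) :
    N * Nat.card (D ⊓ centralizer ({wd a z} : Set X) : Subgroup X) ≤ Nat.card D := by
  rw [CA.Loc.card_eq_orbit D (wd a z)]
  refine Nat.mul_le_mul_right _ (le_ncard (Set.toFinite _) (fun i => wd a (W i ++ (z ++ rv (W i))))
    (fun i hi => ⟨wd a (W i), wd_mem hD (hW i hi), ?_⟩) (M.wd_inj hB (sub_refl _) h).2)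
  simp only [wd_append, rv_eq, M.sq.rev (inS_sub hT (hW i hi)), mul_assoc]

/-- a homomorphism out of a based model -/
theorem BM.exists_hom {Y : Type*} [Group Y] {b : ℕ → Y} (M : BM a S n act B) (hS : gp a S = ⊤)
    (R : RM b S n act B) : ∃ φ : X →* Y, ∀ w, inS S w = true → φ (wd a w) = wd b w := by
  obtain ⟨φ, h⟩ := PM.exists_hom R.sq M.sq fun w hw e =>
    R.rel w hw (fixB_iff.2 fun p hp => M.cmp w hw e p (M.ltB p hp))
  exact ⟨φ.comp ((MonoidHom.id X).codRestrict _ fun x => hS ▸ mem_top x), fun w hw => h w hw⟩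

theorem RM.step {Y : Type*} [Group Y] {b : ℕ → Y} {C : Cert} {SA : ℕ} (h : C.OK) (M : Mod b SA n act)
    (s : Sep C SA n act B) {Rs : List (ℕ × List ℕ)} {E : List (List ℕ)} (hv : C.val = valS C.S act Rs E)
    (sq : Sq a C.S) (ra : ∀ r ∈ Rs, Rel a act r.1 r.2) (rb : ∀ r ∈ Rs, Rel b act r.1 r.2)
    (ea : ∀ r ∈ E, wd a r = 1) (eb : ∀ r ∈ E, wd b r = 1) (h0 : Rel a act C.S0 B) : RM a C.S n act B :=
  ⟨M.toTb.mono s.sub, sq, Rel.step h M s sq (hv ▸ valS_spec sq ra ea) (hv ▸ valS_spec (M.sq.mono s.sub) rb eb) h0,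
    s.lt⟩

end CA.PM

theorem CA.PM.realizeEqnsG : True := by
  have := @CA.PM.rv.eq_1
  have := @CA.PM.rv.eq_def
  have := @CA.PM.rv.congr_simp
  have := @CA.PM.eqW.eq_1
  have := @CA.PM.eqW.eq_def
  have := @CA.PM.eqW.congr_simp
  have := @CA.PM.anyS.eq_1
  have := @CA.PM.anyS.eq_def
  have := @CA.PM.anyS.congr_simp
  have := @CA.PM.runs.eq_1
  have := @CA.PM.runs.eq_def
  have := @CA.PM.runs.congr_simp
  have := @CA.PM.neW.eq_1
  have := @CA.PM.neW.eq_def
  have := @CA.PM.neW.congr_simp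
  have := @CA.PM.wds.eq_1.{0}
  have := @CA.PM.wds.eq_def.{0}
  have := @CA.PM.wds.congr_simp.{0}
  have := @CA.PM.allS.eq_1
  have := @CA.PM.allS.eq_def
  have := @CA.PM.allS.congr_simp
  trivial
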