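/-
Faithful actions, derived tables, stabilizer chains, coset covers.
-/
import Cfsg.Agent.PM.G
import Cfsg.Agent.Fi.Orb

set_option autoImplicit false

namespace CA.PM

open CA.TC CA.Fi CA.Typ Subgroup

variable {X : Type*} [Group X]

/-- a faithful right action on `0, …, n-1` with a base -/
structure FA (I : X → ℕ → ℕ) (n : ℕ) (B : List ℕ) : Prop where
  lt : ∀ x, ∀ p < n, I x p < n
  mul : ∀ x y, ∀ p < n, I (x * y) p = I y (I x p)
  one : ∀ p < n, I 1 p = p
  ltB : ∀ b ∈ B, b < n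
  base : ∀ x, (∀ b ∈ B, I x b = b) → x = 1

/-- a table for the action -/
structure AT (I : X → ℕ → ℕ) (a : ℕ → X) (S n : ℕ) (act : ℕ → ℕ → ℕ) : Prop where
  sq : Sq a S
  eq : ∀ g, tb S g = true → ∀ p < n, I (a g) p = act g p

variable {I : X → ℕ → ℕ} {a : ℕ → X} {S n : ℕ} {act : ℕ → ℕ → ℕ} {B : List ℕ}

theorem BM.fa (M : BM a S n act B) (h : gp a S = ⊤) : FA (img a S act) n B ∧ AT (img a S act) a S n act := by
  have m : ∀ x, x ∈ gp a S := fun x => h ▸ mem_top x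
  refine ⟨⟨fun x _ hp => M.img_lt x hp, fun x y _ hp => M.img_mul (m x) (m y) hp, fun _ hp => M.img_one hp, M.ltB,
    fun x hx => ?_⟩, M.sq, fun g hg p hp => ?_⟩
  · obtain ⟨w, hw, rfl⟩ := M.sq.exists_wd (m x)
    exact M.rel w hw (fixB_iff.2 fun b hb => by rw [← M.img_wd hw (M.ltB b hb), hx b hb])
  · have := M.img_wd (w := [g]) (inS_cons.2 ⟨hg, rfl⟩) hp
    simpa using this

theorem AT.mono {T : ℕ} (h : AT I a S n act) (e : sub T S = true) : AT I a T n act :=
  ⟨h.sq.mono e, fun g hg => h.eq g (tb_sub e hg)⟩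

namespace FA

variable (A : FA I n B)
include A

theorem inv (x : X) {p : ℕ} (hp : p < n) : I x⁻¹ (I x p) = p := by rw [← A.mul _ _ _ hp, mul_inv_cancel, A.one _ hp]

theorem inj (x : X) {p q : ℕ} (hp : p < n) (hq : q < n) (e : I x p = I x q) : p = q := by
  rw [← A.inv x hp, e, A.inv x hq]

theorem run (T : AT I a S n act) {w : List ℕ} (hw : inS S w = true) {p : ℕ} (hp : p < n) :
    I (wd a w) p = run act w p := by
  induction w generalizing p with
  | nil => exact A.one p hp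
  | cons g w ih =>
    rw [inS_cons] at hw
    rw [wd_cons, run_cons, A.mul _ _ _ hp, ← T.eq g hw.1 p hp, ih hw.2 (A.lt _ _ hp)]

theorem bm (T : AT I a S n act) : BM a S n act B :=
  ⟨⟨⟨fun g hg p hp => T.eq g hg p hp ▸ A.lt _ _ hp, fun g hg p hp => by
      rw [← T.eq g hg p hp, ← T.eq g hg _ (A.lt _ _ hp), ← A.mul _ _ _ hp, T.sq g hg, A.one p hp]⟩, T.sq,
    fun w hw e p hp => by rw [← A.run T hw hp, e, A.one p hp]⟩,
    fun w hw e => A.base _ fun b hb => by rw [A.run T hw (A.ltB b hb), fixB_iff.1 e b hb], A.ltB⟩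

/-- tables of letters that are words in the letters of another table -/
theorem derive (T : AT I a S n act) {S' : ℕ} (hS : S' < 65536) {W : ℕ → List ℕ} {act' : ℕ → ℕ → ℕ}
    (h1 : allS S' (fun g => band (inS S (W g)) (allL B fun b => Nat.beq (frc (act' g b) (act' g)) b)) = true)
    (h2 : ∀ p < n, allS S' (fun g => Nat.beq (act' g p) (PM.run act (W g) p)) = true) :
    AT I (fun g => wd a (W g)) S' n act' := by
  have e : ∀ g, tb S' g = true → ∀ p < n, I (wd a (W g)) p = act' g p := fun g hg p hp => by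
    rw [A.run T (band_iff.1 (allS_spec hS h1 hg)).1 hp, beq_iff.1 (allS_spec hS (h2 p hp) hg)]
  refine ⟨fun g hg => A.base _ fun b hb => ?_, e⟩
  have := beq_iff.1 (allL_spec (band_iff.1 (allS_spec hS h1 hg)).2 b hb)
  rw [frc_eq] at this
  rw [A.mul _ _ _ (A.ltB b hb), e g hg _ (A.lt _ _ (A.ltB b hb)), e g hg b (A.ltB b hb), this]

/-- pointwise stabilizers -/
def sts (L : List ℕ) : Subgroup X where
  carrier := {x | ∀ b ∈ L, b < n → I x b = b}
  one_mem' := fun b _ hb => A.one b hb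
  mul_mem' := fun {x y} hx hy b h hb => by rw [A.mul _ _ _ hb, hx b h hb, hy b h hb]
  inv_mem' := fun {x} hx b h hb => by have := A.inv x hb; rwa [hx b h hb] at this

theorem mem_sts {L : List ℕ} {x : X} : x ∈ A.sts L ↔ ∀ b ∈ L, b < n → I x b = b := Iff.rfl

theorem sts_nil : A.sts [] = ⊤ := eq_top_iff.2 fun _ _ _ h => nomatch h

theorem wd_sts (T : AT I a S n act) {L w : List ℕ} (hw : inS S w = true) (h : fixB act L w = true) :
    wd a w ∈ A.sts L := fun b hb h' => by rw [A.run T hw h', fixB_iff.1 h b hb]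

theorem gp_sts (T : AT I a S n act) (hS : S < 65536) {L : List ℕ} (h : allS S (fun g => fixB act L [g]) = true) :
    gp a S ≤ A.sts L := gp_le fun g hg => by
  simpa using A.wd_sts T (w := [g]) (inS_cons.2 ⟨hg, rfl⟩) (allS_spec hS h hg)

theorem card_eq {b : ℕ} (hb : b < n) (D : Subgroup X) (L : List ℕ) : Nat.card (D ⊓ A.sts L : Subgroup X) =
    ((fun x => I x b) '' (D ⊓ A.sts L : Subgroup X)).ncard * Nat.card (D ⊓ A.sts (b :: L) : Subgroup X) := by
  rw [card_eq_range (K := A.sts [b]) (fun x => I x b) fun x _ y _ => ?_]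
  · rw [show D ⊓ A.sts L ⊓ A.sts [b] = D ⊓ A.sts (b :: L) by ext x; simp [mem_sts, and_assoc, and_comm, and_left_comm]]
  · simp only [mem_sts, List.mem_singleton, forall_eq, hb, true_imp_iff, A.mul _ _ _ hb]
    refine ⟨fun e => by rw [e, A.inv y hb], fun e => ?_⟩
    have := A.inv y⁻¹ (A.lt x b hb)
    rw [e, inv_inv] at this
    exact this.symm

theorem lev_le {b : ℕ} (hb : b < n) {D : Subgroup X} {L : List ℕ} {f : ℕ → Bool} {d m : ℕ} (hd : n ≤ 64 * 2 ^ d)
    (hm : cnt f n d = m) (h : ∀ x ∈ D, x ∈ A.sts L → f (I x b) = true) :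
    Nat.card (D ⊓ A.sts L : Subgroup X) ≤ m * Nat.card (D ⊓ A.sts (b :: L) : Subgroup X) := by
  rw [A.card_eq hb, ← hm, ← cnt_spec f hd]
  refine Nat.mul_le_mul_right _ (Set.ncard_le_ncard ?_ ((Set.finite_Iio n).subset fun _ h => h.1))
  rintro _ ⟨x, hx, rfl⟩
  exact ⟨A.lt x b hb, h x hx.1 hx.2⟩

end FA

/-- transversal words of a level of a stabilizer chain -/
noncomputable def lvChk (act : ℕ → ℕ → ℕ) (S : ℕ) (L : List ℕ) (b : ℕ) (W : ℕ → List ℕ) (kt : ℕ → ℕ) (i : ℕ) : Bool :=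
  band (band (inS S (W i)) (fixB act L (W i))) (frc (kt i) fun k =>
    band (Nat.beq (run act (W i) b) k) (blt k (kt (Nat.succ i))))

namespace FA

variable (A : FA I n B)
include A

theorem lv_spec (T : AT I a S n act) {b : ℕ} (hb : b < n) {D : Subgroup X} (hD : ∀ g, tb S g = true → a g ∈ D)
    {L : List ℕ} {N : ℕ} {W : ℕ → List ℕ} {kt : ℕ → ℕ} (h : ∀ i < N, lvChk act S L b W kt i = true) :
    (∀ i < N, inS S (W i) = true ∧ I (wd a (W i)) b ∈ (fun x => I x b) '' (D ⊓ A.sts L : Subgroup X)) ∧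
    (∀ i < N, wd a (W i) ∈ D ⊓ A.sts L) ∧
    ∀ i < N, ∀ j < N, I (wd a (W i)) b = I (wd a (W j)) b → i = j := by
  have k : ∀ i < N, (inS S (W i) = true ∧ fixB act L (W i) = true) ∧ PM.run act (W i) b = kt i ∧ kt i < kt (i + 1) :=
    fun i hi => by
      have := h i hi
      unfold lvChk at this
      rwa [band_iff, band_iff, frc_eq, band_iff, beq_iff, blt_iff] at this
  have m : ∀ i < N, wd a (W i) ∈ D ⊓ A.sts L := fun i hi =>
    ⟨wd_mem hD (k i hi).1.1, A.wd_sts T (k i hi).1.1 (k i hi).1.2⟩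
  refine ⟨fun i hi => ⟨(k i hi).1.1, _, m i hi, rfl⟩, m, fun i hi j hj e =>
    inj_of_lt (k := kt) (fun i hi => (k i (by omega)).2.2) i hi j hj ?_⟩
  rwa [A.run T (k i hi).1.1 hb, A.run T (k j hj).1.1 hb, (k i hi).2.1, (k j hj).2.1] at e

theorem fin_orb {b : ℕ} (hb : b < n) (D : Set X) : ((fun x => I x b) '' D).Finite :=
  (Set.finite_Iio n).subset (by rintro _ ⟨x, -, rfl⟩; exact A.lt x b hb)

theorem lev_ge (T : AT I a S n act) {b : ℕ} (hb : b < n) {D : Subgroup X} (hD : ∀ g, tb S g = true → a g ∈ D)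
    {L : List ℕ} {N : ℕ} {W : ℕ → List ℕ} {kt : ℕ → ℕ} (h : ∀ i < N, lvChk act S L b W kt i = true) :
    N * Nat.card (D ⊓ A.sts (b :: L) : Subgroup X) ≤ Nat.card (D ⊓ A.sts L : Subgroup X) := by
  obtain ⟨h1, -, h3⟩ := A.lv_spec T hb hD h
  rw [A.card_eq hb D L]
  exact Nat.mul_le_mul_right _ (le_ncard (A.fin_orb hb _) _ (fun i hi => (h1 i hi).2) h3)

theorem lev_dec [Finite X] (T : AT I a S n act) {b : ℕ} (hb : b < n) {D : Subgroup X}
    (hD : ∀ g, tb S g = true → a g ∈ D) {L : List ℕ} {N : ℕ} {W : ℕ → List ℕ} {kt : ℕ → ℕ}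
    (h : ∀ i < N, lvChk act S L b W kt i = true)
    (hc : Nat.card (D ⊓ A.sts L : Subgroup X) ≤ N * Nat.card (D ⊓ A.sts (b :: L) : Subgroup X)) {x : X}
    (hx : x ∈ D ⊓ A.sts L) : ∃ i < N, inS S (W i) = true ∧ ∃ k ∈ D ⊓ A.sts (b :: L), x = k * wd a (W i) := by
  obtain ⟨h1, h2, h3⟩ := A.lv_spec T hb hD h
  rw [A.card_eq hb D L] at hc
  obtain ⟨i, hi, e⟩ := exists_of_ncard (A.fin_orb hb _) (Nat.le_of_mul_le_mul_right hc Nat.card_pos) _
    (fun i hi => (h1 i hi).2) h3 ⟨x, hx, rfl⟩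
  have m := mul_mem hx (inv_mem (h2 i hi))
  refine ⟨i, hi, (h1 i hi).1, x * (wd a (W i))⁻¹, ⟨m.1, fun c hc hn => ?_⟩, by simp⟩
  rcases List.mem_cons.1 hc with rfl | hc
  · rw [A.mul _ _ _ hn, ← show I (wd a (W i)) c = I x c from e, A.inv _ hn]
  · exact m.2 c hc hn

/-- orbit labels -/
theorem lab (T : AT I a S n act) (hS : S < 65536) {f : ℕ → ℕ} (h : ∀ p < n, invChk S act f p = true) {x : X}
    (hx : x ∈ gp a S) {p : ℕ} (hp : p < n) : f (I x p) = f p := by
  obtain ⟨w, hw, rfl⟩ := T.sq.exists_wd hx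
  rw [A.run T hw hp]
  exact inv_run (A.bm T).toTb (sub_refl _) hS h hw hp

theorem fix_comm {x y : X} (h : Commute x y) {p : ℕ} (hp : p < n) (e : I y p = p) : I y (I x p) = I x p := by
  rw [← A.mul _ _ _ hp, h.eq, A.mul _ _ _ hp, e]

theorem fix_pow {y : X} {p : ℕ} (hp : p < n) (e : I y p = p) {t : X} (ht : t ∈ zpowers y) : I t p = p :=
  (zpowers_le (H := A.sts [p])).2 (fun b hb _ => by rw [List.mem_singleton.1 hb, e]) ht p List.mem_cons_self hp

theorem fix_norm {K : Subgroup X} {x : X} (h : x ∈ normalizer (K : Set X)) {p : ℕ} (hp : p < n)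
    (e : ∀ y ∈ K, I y p = p) {y : X} (hy : y ∈ K) : I y (I x p) = I x p := by
  have := e _ ((mem_normalizer_iff.1 h y).1 hy)
  rw [← A.mul _ _ _ hp, show x * y = x * y * x⁻¹ * x by group, A.mul _ _ _ hp, this]

end FA

/-! ### coset covers -/

/-- the cosets `gp S0 * W i` are permuted by the letters -/
noncomputable def covChk (act : ℕ → ℕ → ℕ) (B : List ℕ) (S S0 N : ℕ) (W : ℕ → List ℕ) (nx : ℕ → ℕ → ℕ)
    (uw : ℕ → ℕ → List ℕ) (i : ℕ) : Bool :=
  band (inS S (W i)) (allS S fun g => frc (nx g i) fun j =>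
    band (band (blt j N) (inS S0 (uw g i))) (eqW act S B [W i, [g]] [uw g i, W j]))

theorem RM.cov (M : RM a S n act B) (hS : S < 65536) {S0 N : ℕ} {W : ℕ → List ℕ} {nx : ℕ → ℕ → ℕ}
    {uw : ℕ → ℕ → List ℕ} (h0 : 0 < N) (h1 : W 0 = []) (h : ∀ i < N, covChk act B S S0 N W nx uw i = true) {x : X}
    (hx : x ∈ gp a S) : ∃ i < N, inS S (W i) = true ∧ ∃ k ∈ gp a S0, x = k * wd a (W i) := by
  obtain ⟨w, hw, rfl⟩ := M.sq.exists_wd hx
  clear hx
  have k := fun i hi => (band_iff.1 (h i hi)).1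
  induction w using List.reverseRecOn with
  | nil => exact ⟨0, h0, k _ h0, 1, one_mem _, by simp [h1]⟩
  | append_singleton w g ih =>
    rw [inS_append, inS_cons] at hw
    obtain ⟨i, hi, -, y, hy, e⟩ := ih hw.1
    have := allS_spec hS (band_iff.1 (h i hi)).2 hw.2.1
    rw [frc_eq, band_iff, band_iff, blt_iff] at this
    have e2 := M.eq this.2
    simp only [wds_cons, wds_nil, mul_one] at e2
    exact ⟨_, this.1.1, k _ this.1.1, _, mul_mem hy (wd_mem_gp this.1.2), by rw [wd_append, e, mul_assoc, e2, mul_assoc]⟩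

theorem card_le_of_cov {K K0 : Subgroup X} [Finite K0] {N : ℕ} {F : ℕ → X}
    (h : ∀ x ∈ K, ∃ i < N, ∃ k ∈ K0, x = k * F i) : Finite K ∧ Nat.card K ≤ N * Nat.card K0 := by
  choose! i hi k hk e using h
  let f : K → Fin N × K0 := fun x => (⟨i x, hi x x.2⟩, ⟨k x, hk x x.2⟩)
  have hf : Function.Injective f := fun x y h => Subtype.ext (by
    have h1 : i x = i y := congrArg (fun p => p.1.1) h
    have h2 : k x = k y := congrArg (fun p => p.2.1) h
    rw [e x x.2, e y y.2, h1, h2])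
  exact ⟨Finite.of_injective f hf, by simpa using Nat.card_le_card_of_injective f hf⟩

theorem gp_zero : gp a 0 = ⊥ := le_bot_iff.1 (gp_le fun g hg => by rw [tb_eq, Nat.zero_testBit] at hg; cases hg)

theorem RM.cov_card (M : RM a S n act B) (hS : S < 65536) {S0 N m : ℕ} {W : ℕ → List ℕ} {nx : ℕ → ℕ → ℕ}
    {uw : ℕ → ℕ → List ℕ} (h0 : 0 < N) (h1 : W 0 = []) (h : ∀ i < N, covChk act B S S0 N W nx uw i = true)
    (f : Finite (gp a S0) ∧ Nat.card (gp a S0) ≤ m) : Finite (gp a S) ∧ Nat.card (gp a S) ≤ N * m := by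
  haveI := f.1
  have := card_le_of_cov (K := gp a S) (F := fun i => wd a (W i)) fun x hx =>
    (M.cov hS h0 h1 h hx).imp fun i hi => ⟨hi.1, hi.2.2⟩
  exact ⟨this.1, this.2.trans (Nat.mul_le_mul_left _ f.2)⟩

theorem card_gp_zero : Finite (gp a 0) ∧ Nat.card (gp a 0) ≤ 1 := by
  rw [gp_zero]; exact ⟨inferInstance, card_bot.le⟩

/-- counting the elements of a subgroup in an enumeration -/
theorem card_le_cnt {D : Subgroup X} {N d m : ℕ} {F : ℕ → X} {f : ℕ → Bool} (hd : N ≤ 64 * 2 ^ d)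
    (hm : cnt f N d = m) (h : ∀ x ∈ D, ∃ i < N, f i = true ∧ F i = x) : Nat.card D ≤ m := by
  rw [← hm, ← cnt_spec f hd]
  have fi : {p | p < N ∧ f p = true}.Finite := (Set.finite_Iio N).subset fun _ h => h.1
  refine (Set.ncard_le_ncard (t := F '' _) ?_ (fi.image F)).trans (Set.ncard_image_le fi)
  intro x hx
  obtain ⟨i, h1, h2, h3⟩ := h x hx
  exact ⟨i, ⟨h1, h2⟩, h3⟩

/-! ### centralizer chains -/

/-- the words commute with `ys` and conjugate `z` to different elements -/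
noncomputable def ccChk (act : ℕ → ℕ → ℕ) (B : List ℕ) (S : ℕ) (ys : List (List ℕ)) (z : List ℕ) (W : ℕ → List ℕ)
    (kt : ℕ → ℕ) (i : ℕ) : Bool :=
  band (enChk act B S (fun i => W i ++ (z ++ rv (W i))) kt i) (band (inS S (W i))
    (allL ys fun y => eqW act S B [W i, y] [y, W i]))

/-- the centralizer of a list of words -/
def cW (a : ℕ → X) (ys : List (List ℕ)) : Subgroup X := centralizer {x | ∃ y ∈ ys, wd a y = x}

theorem mem_cW {ys : List (List ℕ)} {x : X} : x ∈ cW a ys ↔ ∀ y ∈ ys, Commute x (wd a y) :=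
  ⟨fun h y hy => (show Commute _ _ from h _ ⟨y, hy, rfl⟩).symm, by
    rintro h _ ⟨y, hy, rfl⟩; exact (h y hy).symm⟩

theorem cW_one (y : List ℕ) : cW a [y] = centralizer {wd a y} := by
  ext x; simp [mem_cW, mem_cent_iff]

theorem BM.cc [Finite X] (M : BM a S n act B) {ys : List (List ℕ)} {z : List ℕ} {N : ℕ} {W : ℕ → List ℕ} {kt : ℕ → ℕ}
    (h : ∀ i < N, ccChk act B S ys z W kt i = true) : N * Nat.card (cW a (z :: ys)) ≤ Nat.card (cW a ys) := by
  have e : cW a (z :: ys) = cW a ys ⊓ centralizer {wd a z} := by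
    ext x; simp [mem_cW, mem_cent_iff, and_comm]
  rw [e, CA.Loc.card_eq_orbit (cW a ys) (wd a z)]
  refine Nat.mul_le_mul_right _ (le_ncard (Set.toFinite _) (fun i => wd a (W i ++ (z ++ rv (W i))))
    (fun i hi => ⟨wd a (W i), mem_cW.2 fun y hy => M.rm.comm (allL_spec (band_iff.1 (band_iff.1 (h i hi)).2).2 y hy),
      ?_⟩) (M.wd_inj M.ltB (sub_refl _) fun i hi => (band_iff.1 (h i hi)).1).2)
  simp only [wd_append, rv_eq, M.sq.rev (band_iff.1 (band_iff.1 (h i hi)).2).1, mul_assoc]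

/-! ### substitution and sums of tables -/

theorem wd_flatMap (a : ℕ → X) (W : ℕ → List ℕ) (w : List ℕ) : wd a (w.flatMap W) = wd (fun g => wd a (W g)) w := by
  induction w with
  | nil => rfl
  | cons g w ih => simp [ih]

theorem inS_flatMap {T : ℕ} {W : ℕ → List ℕ} (h : ∀ g, tb T g = true → inS S (W g) = true) {w : List ℕ}
    (hw : inS T w = true) : inS S (w.flatMap W) = true :=
  inS_iff.2 fun g hg => by
    obtain ⟨k, hk, e⟩ := List.mem_flatMap.1 hg
    exact inS_iff.1 (h k (inS_iff.1 hw k hk)) g e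

theorem wd_congr {b : ℕ → X} (h : ∀ g, tb S g = true → a g = b g) {w : List ℕ} (hw : inS S w = true) :
    wd a w = wd b w := by
  induction w with
  | nil => rfl
  | cons g w ih => rw [inS_cons] at hw; rw [wd_cons, wd_cons, h g hw.1, ih hw.2]

theorem conj_sub {δ : X} {W : ℕ → List ℕ} (h : ∀ g, tb S g = true → δ * a g * δ⁻¹ = wd a (W g)) {w : List ℕ}
    (hw : inS S w = true) : δ * wd a w * δ⁻¹ = wd a (w.flatMap W) := by
  rw [wd_flatMap, ← wd_congr h hw]
  exact (wd_map (MulAut.conj δ).toMonoidHom a w).symm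

/-- the second part of the table `act` is the table `act2` of the words `W g` -/
noncomputable def sumChk (act act2 : ℕ → ℕ → ℕ) (S n : ℕ) (W : ℕ → List ℕ) (p : ℕ) : Bool :=
  allS S fun g => Nat.beq (act g (Nat.add n p)) (Nat.add n (run act2 (W g) p))

theorem sum_run {T m : ℕ} {act2 : ℕ → ℕ → ℕ} {W : ℕ → List ℕ} (hS : S < 65536) (M : Tb T m act2)
    (hW : ∀ g, tb S g = true → inS T (W g) = true) (h : ∀ p < m, sumChk act act2 S n W p = true) {w : List ℕ}
    (hw : inS S w = true) {p : ℕ} (hp : p < m) : run act w (n + p) = n + run act2 (w.flatMap W) p := by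
  induction w generalizing p with
  | nil => rfl
  | cons g w ih =>
    rw [inS_cons] at hw
    have : act g (n + p) = n + run act2 (W g) p := beq_iff.1 (allS_spec hS (h p hp) hw.1)
    rw [run_cons, this, ih hw.2 (M.run_lt (hW g hw.1) hp), List.flatMap_cons, run_append]

theorem BM.sum {Y : Type*} [Group Y] {c : ℕ → Y} {T m : ℕ} {act2 : ℕ → ℕ → ℕ} {W : ℕ → List ℕ} {B2 : List ℕ}
    (hS : S < 65536) (M : BM a S n act B) (M2 : BM c T m act2 B2)
    (hW : allS S (fun g => eqW act2 T B2 [W g, W g] []) = true) (h : ∀ p < m, sumChk act act2 S n W p = true) :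
    BM (fun g => (a g, wd c (W g))) S (n + m) act (B ++ B2.map (n + ·)) := by
  have w1 : ∀ g, tb S g = true → inS T (W g) = true := fun g hg => eqW_inS (allS_spec hS hW hg) _ List.mem_cons_self
  have sq : Sq (fun g => wd c (W g)) S := fun g hg => by simpa using M2.rm.eq (allS_spec hS hW hg)
  have r := fun w hw p hp => sum_run (n := n) (w := w) (p := p) hS M2.toTb w1 h hw hp
  have c1 : ∀ w, inS S w = true → wd (fun g => wd c (W g)) w = 1 → ∀ p < m, run act w (n + p) = n + p :=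
    fun w hw e p hp => by rw [r w hw p hp, M2.cmp _ (inS_flatMap w1 hw) (by rw [wd_flatMap, e]) p hp]
  have s : ∀ p < n + m, p < n ∨ ∃ q < m, p = n + q := fun p hp =>
    (lt_or_ge p n).imp id fun k => ⟨p - n, by omega, by omega⟩
  refine ⟨⟨⟨fun g hg p hp => ?_, fun g hg p hp => ?_⟩, fun g hg => Prod.ext (M.sq g hg) (sq g hg),
    fun w hw e p hp => ?_⟩, fun w hw e => ?_, fun b hb => ?_⟩
  · rcases s p hp with k | ⟨q, hq, rfl⟩
    · exact (M.lt g hg p k).trans_le (Nat.le_add_right _ _)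
    · have := r [g] (inS_cons.2 ⟨hg, rfl⟩) q hq
      have k := M2.run_lt (inS_flatMap w1 (inS_cons.2 ⟨hg, inS_nil S⟩)) hq
      rw [run_cons, run_nil] at this
      omega
  · rcases s p hp with k | ⟨q, hq, rfl⟩
    · exact M.inv g hg p k
    · simpa using c1 [g, g] (inS_cons.2 ⟨hg, inS_cons.2 ⟨hg, rfl⟩⟩) (by simpa using sq g hg) q hq
  · rw [wd_prod] at e
    rcases s p hp with k | ⟨q, hq, rfl⟩
    exacts [M.cmp w hw (congrArg Prod.fst e) p k, c1 w hw (congrArg Prod.snd e) q hq]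
  · rw [fixB_iff] at e
    rw [wd_prod, M.rel w hw (fixB_iff.2 fun b hb => e b (List.mem_append_left _ hb)), ← wd_flatMap,
      M2.rel _ (inS_flatMap w1 hw) (fixB_iff.2 fun b hb => ?_)]
    · rfl
    · have := e _ (List.mem_append_right _ (List.mem_map_of_mem hb))
      rw [r w hw b (M2.ltB b hb)] at this
      omega
  · rcases List.mem_append.1 hb with k | k
    · exact (M.ltB b k).trans_le (Nat.le_add_right _ _)
    · obtain ⟨q, hq, rfl⟩ := List.mem_map.1 k
      exact Nat.add_lt_add_left (M2.ltB q hq) _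

/-! ### normal subgroups and large extraspecial subgroups -/

theorem LE_inj {Y : Type*} [Group Y] {Q K : Subgroup X} {z : X} (L : LE Q z) (hQ : Q ≤ K)
    (hK : ∀ x ∈ K, Commute x z) (φ : K →* Y) (h : φ ⟨z, hQ L.z_mem⟩ ≠ 1) : Function.Injective φ := by
  refine (injective_iff_map_eq_one φ).2 fun x hx => ?_
  have k : ∀ y : K, y.1 ∈ Q → φ y = 1 → y = 1 := fun y hy e => by
    rcases L.cen y hy (fun t ht => (L.comm y hy t ht).resolve_right fun c => h (by
      have : y * ⟨t, hQ ht⟩ = ⟨t, hQ ht⟩ * y * ⟨z, hQ L.z_mem⟩ := Subtype.ext c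
      simpa [e] using congrArg φ this)) with r | r
    · exact Subtype.ext r
    · exact absurd ((congrArg φ (Subtype.ext r)).symm.trans e) h
  refine k x (L.cent x fun t ht => ?_) hx
  have := k (x * ⟨t, hQ ht⟩ * x⁻¹ * ⟨t, hQ ht⟩⁻¹) (Q.mul_mem (L.norm x (hK x x.2) t ht) (Q.inv_mem ht)) (by simp [hx])
  exact commutatorElement_eq_one_iff_commute.1 (congrArg Subtype.val this)

theorem normal_eq_bot [Finite X] {N : Subgroup X} [hN : N.Normal] {z s : X} (hz : z * z = 1) (h1 : IsConj z s)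
    (h2 : IsConj z (s * z)) (h : ∀ x ∈ N, Commute x z → x = 1) : N = ⊥ := by
  have k : ∀ t, IsConj z t → t * t = 1 ∧ ∀ x ∈ N, Commute t x → x = 1 := fun t ht => by
    obtain ⟨g, rfl⟩ := isConj_iff.1 ht
    refine ⟨by rw [show g * z * g⁻¹ * (g * z * g⁻¹) = g * (z * z) * g⁻¹ by group, hz]; simp, fun x hx c => ?_⟩
    have := h _ (hN.conj_mem x hx g⁻¹) (show _ = _ by
      calc g⁻¹ * x * g⁻¹⁻¹ * z = g⁻¹ * (x * (g * z * g⁻¹)) * g := by group
        _ = _ := by rw [← c.eq]; group)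
    simpa [mul_eq_one_iff_eq_inv, inv_mul_eq_iff_eq_mul] using this
  have v : ∀ t, IsConj z t → ∀ x ∈ N, t * x * t⁻¹ = x⁻¹ := fun t ht x hx =>
    inverts_of_fpf (k t ht).1 (by simp [normalizer_eq_top]) (k t ht).2 hx
  refine eq_bot_iff.2 fun x hx => (k _ h2).2 x hx (conj_eq_iff_commute.1 ?_)
  calc s * z * x * (s * z)⁻¹ = s * (z * x * z⁻¹) * s⁻¹ := by group
    _ = x := by rw [v z (IsConj.refl z) x hx, v s h1 _ (inv_mem hx), inv_inv]

theorem LE.not_conj [Finite X] {Q : Subgroup X} {z : X} (L : LE Q z) (h8 : 8 < Nat.card Q)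
    (h4 : ∀ y, Commute y z → y ^ 8 = 1 → y ^ 4 ∈ Q) {x b : X} (hx : x ^ 4 = z) (hc : Commute x b) (hb : b ∉ Q) :
    ¬ IsConj z b := fun h => by
  obtain ⟨g, rfl⟩ := isConj_iff.1 h
  have e : (g⁻¹ * x * g⁻¹⁻¹) ^ 4 = g⁻¹ * z * g⁻¹⁻¹ := by rw [conj_pow, hx]
  have := h4 (g⁻¹ * x * g⁻¹⁻¹) (show _ = _ by
      calc g⁻¹ * x * g⁻¹⁻¹ * z = g⁻¹ * (x * (g * z * g⁻¹)) * g := by group
        _ = _ := by rw [hc.eq]; group)
    (by rw [conj_pow, show 8 = 4 * 2 from rfl, pow_mul, hx, pow_two, L.z_sq]; simp)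
  rw [e] at this
  obtain ⟨y, hy, e⟩ := L.mem_conj h8 this
  apply hb
  rw [← e]
  simpa [mul_assoc] using hy

end CA.PM

theorem CA.PM.realizeEqnsCh : True := by
  have := @CA.PM.covChk.eq_1
  have := @CA.PM.covChk.eq_def
  have := @CA.PM.covChk.congr_simp
  have := @CA.PM.lvChk.eq_1
  have := @CA.PM.lvChk.eq_def
  have := @CA.PM.lvChk.congr_simp
  have := @CA.PM.sumChk.eq_1
  have := @CA.PM.sumChk.eq_def
  have := @CA.PM.sumChk.congr_simp
  have := @CA.PM.ccChk.eq_1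
  have := @CA.PM.ccChk.eq_def
  have := @CA.PM.ccChk.congr_simp
  have := @CA.PM.FA.sts.eq_1.{0}
  have := @CA.PM.FA.sts.eq_def.{0}
  have := @CA.PM.FA.sts.congr_simp.{0}
  have := @CA.PM.cW.eq_1.{0}
  have := @CA.PM.cW.eq_def.{0}
  have := @CA.PM.cW.congr_simp.{0}
  trivial
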